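import Cfsg.Agent.Lib.Helper26.ThompsonDih3
import Cfsg.Agent.S0058

/-! Transfer of the dual-system lemma and of coprime generation to groups of automorphisms
(through the semidirect product). -/

set_option autoImplicit false

namespace Cfsg.Agent.Lib.Helper26.AE

open SemidirectProduct

section
variable {P : Type*} [Group P] [Finite P]

instance finite_sdp (I : Subgroup (MulAut P)) : Finite (P ⋊[I.subtype] I) :=
  Finite.of_equiv _ (SemidirectProduct.equivProd).symm

theorem conj_inr_inl (I : Subgroup (MulAut P)) (g : I) (n : P) :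
    (inr g * inl n * (inr g)⁻¹ : P ⋊[I.subtype] I) = inl ((g : MulAut P) n) := by
  rw [← map_inv, ← inl_aut]
  rfl

/-- dual systems for an elementary abelian 2-group of automorphisms of a solvable group of odd
order. -/
theorem aut_dual_system (hsol : Group.IsSolvable P) (hodd : Odd (Nat.card P))
    (I : Subgroup (MulAut P)) (hcomm : ∀ a ∈ I, ∀ b ∈ I, a * b = b * a) (hsq : ∀ a ∈ I, a * a = 1)
    (d : ℕ) (hcard : Nat.card I = 2 ^ d) :
    ∃ (T : Fin d → MulAut P) (y : Fin d → P), (∀ i, T i ∈ I) ∧ (∀ i, y i ≠ 1) ∧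
      (∀ i, ∀ g ∈ I, g (y i) = y i ∨ g (y i) = (y i)⁻¹) ∧ (∀ i, T i (y i) = (y i)⁻¹) ∧
      (∀ i j, i ≠ j → T i (y j) = y j) ∧ (∀ i j, y i * y j = y j * y i) ∧
      (∀ c ∈ I, (∀ i, c (y i) = y i) → c = 1) := by
  classical
  set L : Subgroup (P ⋊[I.subtype] I) := (inl : P →* P ⋊[I.subtype] I).range with hL
  set A : Subgroup (P ⋊[I.subtype] I) := (inr : I →* P ⋊[I.subtype] I).range with hA
  have hE : E2 A := by
    constructor
    · rintro _ ⟨a, rfl⟩ _ ⟨b, rfl⟩
      rw [← map_mul, ← map_mul]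
      congr 1
      exact Subtype.ext (hcomm a a.2 b b.2)
    · rintro _ ⟨a, rfl⟩
      rw [← map_mul, ← map_one (inr : I →* P ⋊[I.subtype] I)]
      congr 1
      exact Subtype.ext (hsq a a.2)
  have hcardL : Nat.card L = Nat.card P :=
    (Nat.card_congr (MonoidHom.ofInjective (inl_injective (φ := I.subtype))).toEquiv).symm
  have hcardA : Nat.card A = 2 ^ d := by
    rw [← hcard]
    exact (Nat.card_congr (MonoidHom.ofInjective (inr_injective (φ := I.subtype))).toEquiv).symm
  have hLodd : Odd (Nat.card L) := hcardL ▸ hodd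
  have hLsol : Group.IsSolvable L :=
    Group.isSolvable_of_surjective (f := (inl : P →* P ⋊[I.subtype] I).rangeRestrict)
      (MonoidHom.rangeRestrict_surjective _)
  have hinv : CInv A L := by
    rintro _ ⟨a, rfl⟩ _ ⟨x, rfl⟩
    rw [conj_inr_inl]
    exact ⟨_, rfl⟩
  obtain ⟨V, hVL, hVab, hVinv, hVf⟩ := exists_abelian_faithful hE (Nat.card L) L le_rfl hLsol hLodd hinv
  have hVodd : Odd (Nat.card V) := Odd.of_dvd_nat hLodd (Subgroup.card_dvd_of_le hVL)
  have hf : ∀ a ∈ A, (∀ v ∈ V, a * v = v * a) → a = 1 := by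
    rintro _ ⟨a, rfl⟩ h
    have h1 := hVf _ ⟨a, rfl⟩ h
    have h2 : a = 1 := by
      apply Subtype.ext
      apply MulEquiv.ext
      intro x
      have h3 := conj_of_comm (h1 (inl x) ⟨x, rfl⟩)
      rw [conj_inr_inl] at h3
      exact inl_injective h3
    rw [h2, map_one]
  obtain ⟨a, x, h1, h2, h3, h4, -, -, h7⟩ := dual_system2 hE hVab hVodd hVinv hf d A le_rfl hcardA
  have hex1 : ∀ i, ∃ t : I, inr t = a i := fun i => h1 i
  have hex2 : ∀ i, ∃ u : P, inl u = x i := fun i => hVL (h2 i).1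
  choose t ht using hex1
  choose u hu using hex2
  refine ⟨fun i => (t i : MulAut P), u, fun i => (t i).2, ?_, ?_, ?_, ?_, ?_, ?_⟩
  · intro i h
    apply (h2 i).2.1
    rw [← hu i, h, map_one]
  · intro i g hg
    rcases (h2 i).2.2 (inr ⟨g, hg⟩) ⟨_, rfl⟩ with h | h
    · left
      rw [← hu i, conj_inr_inl] at h
      exact inl_injective h
    · right
      rw [← hu i, conj_inr_inl, ← map_inv] at h
      exact inl_injective h
  · intro i
    have h := h3 i
    rw [← hu i, ← ht i, conj_inr_inl, ← map_inv] at h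
    exact inl_injective h
  · intro i j hij
    have h := conj_of_comm (h4 i j hij)
    rw [← hu j, ← ht i, conj_inr_inl] at h
    exact inl_injective h
  · intro i j
    have h := hVab _ (h2 i).1 _ (h2 j).1
    rw [← hu i, ← hu j, ← map_mul, ← map_mul] at h
    exact inl_injective h
  · intro c hc h
    have h5 := h7 (inr ⟨c, hc⟩) ⟨_, rfl⟩ (by
      intro i
      apply comm_of_conj
      rw [← hu i, conj_inr_inl]
      exact congrArg _ (h i))
    have h6 : (⟨c, hc⟩ : I) = 1 := inr_injective (by rw [h5, map_one])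
    exact congrArg Subtype.val h6

/-- coprime generation for a noncyclic abelian group of automorphisms. -/
theorem aut_generation (A : Subgroup (MulAut P)) (hcomm : ∀ a ∈ A, ∀ b ∈ A, a * b = b * a)
    (hnc : ¬ IsCyclic A) (hcop : (Nat.card A).Coprime (Nat.card P)) (Q : Subgroup P)
    (hQ : ∀ a ∈ A, a ≠ 1 → ∀ x, a x = x → x ∈ Q) : Q = ⊤ := by
  classical
  set K : Subgroup (P ⋊[A.subtype] A) := (inl : P →* P ⋊[A.subtype] A).range with hK
  set B : Subgroup (P ⋊[A.subtype] A) := (inr : A →* P ⋊[A.subtype] A).range with hB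
  have e : A ≃* B := MonoidHom.ofInjective (inr_injective (φ := A.subtype))
  have hcardK : Nat.card K = Nat.card P :=
    (Nat.card_congr (MonoidHom.ofInjective (inl_injective (φ := A.subtype))).toEquiv).symm
  have hcardB : Nat.card B = Nat.card A := (Nat.card_congr e.toEquiv).symm
  haveI : IsMulCommutative B := by
    refine ⟨⟨?_⟩⟩
    rintro ⟨_, ⟨a, rfl⟩⟩ ⟨_, ⟨b, rfl⟩⟩
    apply Subtype.ext
    change inr a * inr b = inr b * inr a
    rw [← map_mul, ← map_mul]
    congr 1
    exact Subtype.ext (hcomm a a.2 b b.2)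
  have hBnc : ¬ IsCyclic B := fun h => hnc (isCyclic_of_surjective e.symm e.symm.surjective)
  have hBK : B ≤ Subgroup.normalizer (K : Set (P ⋊[A.subtype] A)) := by
    apply CInv.le_normalizer
    rintro _ ⟨a, rfl⟩ _ ⟨x, rfl⟩
    rw [conj_inr_inl]
    exact ⟨_, rfl⟩
  have key := Cfsg.Agent.S0058.result B K hBnc hBK (by rw [hcardK, hcardB]; exact hcop)
  have hle : K ≤ Q.map (inl : P →* P ⋊[A.subtype] A) := by
    rw [← key]
    apply iSup₂_le
    rintro b ⟨⟨a, rfl⟩, hb1⟩ w hw
    obtain ⟨⟨x, rfl⟩, hw2⟩ := Subgroup.mem_inf.1 hw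
    rw [Subgroup.mem_centralizer_singleton_iff] at hw2
    have h3 := conj_of_comm hw2.symm
    rw [conj_inr_inl] at h3
    refine ⟨x, hQ a a.2 ?_ x (inl_injective h3), rfl⟩
    intro h
    apply hb1
    have : a = 1 := Subtype.ext h
    rw [this, map_one]
  rw [eq_top_iff]
  intro x _
  obtain ⟨x', hx', h⟩ := hle (⟨x, rfl⟩ : inl x ∈ K)
  rw [← inl_injective h]
  exact hx'

end

end Cfsg.Agent.Lib.Helper26.AE
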