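import Mathlib

/-! Auxiliary lemmas on involutive automorphisms of `p`-groups, `p` odd. -/

set_option autoImplicit false

namespace Cfsg.Agent.Lib.Helper26.AE

section
variable {P : Type*} [Group P]

theorem eq_one_of_eq_inv {p : ℕ} (hp : p.Prime) (hp2 : p ≠ 2) (hP : IsPGroup p P) {x : P}
    (h : x = x⁻¹) : x = 1 := by
  obtain ⟨m, hm⟩ := hP x
  have h2 : x ^ 2 = 1 := by
    rw [pow_two]
    nth_rewrite 2 [h]
    exact mul_inv_cancel x
  have h3 : orderOf x ∣ Nat.gcd (p ^ m) 2 :=
    Nat.dvd_gcd (orderOf_dvd_of_pow_eq_one hm) (orderOf_dvd_of_pow_eq_one h2)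
  have h4 : Nat.Coprime (p ^ m) 2 :=
    Nat.Coprime.pow_left _ ((Nat.coprime_primes hp Nat.prime_two).2 hp2)
  rw [h4] at h3
  exact orderOf_eq_one_iff.1 (Nat.dvd_one.1 h3)

theorem cyc_dichotomy {p : ℕ} (hp : p.Prime) (hp2 : p ≠ 2) (hP : IsPGroup p P)
    (S : MulAut P) (hS : S * S = 1) (g : P) (hg : S g ∈ Subgroup.zpowers g) :
    (∀ x ∈ Subgroup.zpowers g, S x = x) ∨ (∀ x ∈ Subgroup.zpowers g, S x = x⁻¹) := by
  obtain ⟨k, hk⟩ := Subgroup.mem_zpowers_iff.1 hg
  obtain ⟨m, hm⟩ := hP g
  obtain ⟨m', -, hm'⟩ := (Nat.dvd_prime_pow hp).1 (orderOf_dvd_of_pow_eq_one hm)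
  have hSS : S (S g) = g := by
    have := congrArg (fun f : MulAut P => f g) hS
    simpa [MulAut.mul_apply] using this
  have h1 : g ^ (k * k) = g := by
    rw [zpow_mul, hk, ← map_zpow, hk, hSS]
  have h2 : (orderOf g : ℤ) ∣ (k - 1) * (k + 1) := by
    rw [orderOf_dvd_iff_zpow_eq_one]
    have : (k - 1) * (k + 1) = k * k - 1 := by ring
    rw [this, zpow_sub, h1, zpow_one, mul_inv_cancel]
  rw [hm'] at h2
  push_cast at h2
  have hpp : Prime (p : ℤ) := Nat.prime_iff_prime_int.1 hp
  by_cases hpk : (p : ℤ) ∣ k - 1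
  · have hnk : ¬ (p : ℤ) ∣ k + 1 := by
      intro h
      have h3 : (p : ℤ) ∣ 2 := by
        have := dvd_sub h hpk
        have e : k + 1 - (k - 1) = 2 := by ring
        rwa [e] at this
      have h4 : p ∣ 2 := by exact_mod_cast h3
      exact hp2 ((Nat.prime_dvd_prime_iff_eq hp Nat.prime_two).1 h4)
    have hc : IsCoprime ((p : ℤ) ^ m') (k + 1) :=
      IsCoprime.pow_left ((Prime.coprime_iff_not_dvd hpp).2 hnk)
    have h5 : ((p : ℤ) ^ m') ∣ k - 1 := hc.dvd_of_dvd_mul_right h2
    left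
    have h6 : g ^ (k - 1) = 1 := by
      rw [← orderOf_dvd_iff_zpow_eq_one, hm']
      exact_mod_cast h5
    have h7 : S g = g := by
      rw [← hk]
      rw [zpow_sub, zpow_one, mul_inv_eq_one] at h6
      exact h6
    intro x hx
    obtain ⟨n, rfl⟩ := Subgroup.mem_zpowers_iff.1 hx
    rw [map_zpow, h7]
  · have hc : IsCoprime ((p : ℤ) ^ m') (k - 1) :=
      IsCoprime.pow_left ((Prime.coprime_iff_not_dvd hpp).2 hpk)
    have h5 : ((p : ℤ) ^ m') ∣ k + 1 := hc.dvd_of_dvd_mul_left h2
    right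
    have h6 : g ^ (k + 1) = 1 := by
      rw [← orderOf_dvd_iff_zpow_eq_one, hm']
      exact_mod_cast h5
    have h7 : S g = g⁻¹ := by
      rw [← hk]
      rw [zpow_add, zpow_one] at h6
      exact eq_inv_of_mul_eq_one_left h6
    intro x hx
    obtain ⟨n, rfl⟩ := Subgroup.mem_zpowers_iff.1 hx
    rw [map_zpow, h7, inv_zpow]

/-- `S` commuting with `R` preserves the fixed points of `R`. -/
theorem fix_of_comm {R S : MulAut P} (hRS : R * S = S * R) {x : P} (hx : R x = x) :
    R (S x) = S x := by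
  have := congrArg (fun f : MulAut P => f x) hRS
  simp only [MulAut.mul_apply] at this
  rw [this, hx]

/-- cyclic fixed points: an involution commuting with `R` fixes or inverts `Fix R`. -/
theorem cyc_fix_dichotomy {p : ℕ} (hp : p.Prime) (hp2 : p ≠ 2) (hP : IsPGroup p P)
    {R S : MulAut P} (hS : S * S = 1) (hRS : R * S = S * R) {g : P}
    (hg : ∀ x : P, (R x = x ↔ x ∈ Subgroup.zpowers g)) :
    (∀ x, R x = x → S x = x) ∨ (∀ x, R x = x → S x = x⁻¹) := by
  have h1 : S g ∈ Subgroup.zpowers g :=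
    (hg _).1 (fix_of_comm hRS ((hg g).2 (Subgroup.mem_zpowers g)))
  rcases cyc_dichotomy hp hp2 hP S hS g h1 with h | h
  · left
    intro x hx
    exact h x ((hg x).1 hx)
  · right
    intro x hx
    exact h x ((hg x).1 hx)

/-- fixed-point-free involution on the fixed points of `R`. -/
theorem comm_of_fpf [Finite P] {R S : MulAut P} (hS : S * S = 1) (hRS : R * S = S * R)
    (hfpf : ∀ x, R x = x → S x = x → x = 1) (x y : P) (hx : R x = x) (hy : R y = y) :
    x * y = y * x := by
  let D : Subgroup P :=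
    { carrier := {x | R x = x}
      mul_mem' := by
        intro a b ha hb
        simp only [Set.mem_ofPred_eq] at *
        rw [map_mul, ha, hb]
      one_mem' := map_one R
      inv_mem' := by
        intro a ha
        simp only [Set.mem_ofPred_eq] at *
        rw [map_inv, ha] }
  let φ : D →* D :=
    { toFun := fun d => ⟨S d, fix_of_comm hRS d.2⟩
      map_one' := Subtype.ext (map_one S)
      map_mul' := fun a b => Subtype.ext (map_mul S (a : P) (b : P)) }
  have h1 : MonoidHom.FixedPointFree φ := by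
    intro d hd
    apply Subtype.ext
    exact hfpf d d.2 (congrArg Subtype.val hd)
  have h2 : Function.Involutive φ := by
    intro d
    apply Subtype.ext
    have := congrArg (fun f : MulAut P => f (d : P)) hS
    simp only [MulAut.mul_apply, MulAut.one_apply] at this
    exact this
  have h3 := h1.commute_all_of_involutive h2 ⟨x, hx⟩ ⟨y, hy⟩
  exact congrArg Subtype.val h3

end

section comm
variable {A : Type*} [CommGroup A] [Finite A]

theorem card_ker_pow_le (p : ℕ) (hp : 0 < p) (a b : A) (h : Subgroup.closure {a, b} = ⊤) :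
    Nat.card (powMonoidHom p : A →* A).ker ≤ p ^ 2 := by
  classical
  set φ : A →* A := powMonoidHom p with hφ
  have h1 : Nat.card φ.ker * Nat.card φ.range = Nat.card A := by
    rw [← Subgroup.index_ker, Subgroup.card_mul_index]
  have h2 : Nat.card φ.range * φ.range.index = Nat.card A := Subgroup.card_mul_index _
  have h3 : Nat.card φ.ker = φ.range.index := by
    have hpos : 0 < Nat.card φ.range := Nat.card_pos
    have : Nat.card φ.range * Nat.card φ.ker = Nat.card φ.range * φ.range.index := by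
      rw [h2, mul_comm, h1]
    exact Nat.eq_of_mul_eq_mul_left hpos this
  rw [h3]
  have hs : Function.Surjective (fun ij : Fin p × Fin p =>
      (QuotientGroup.mk (a ^ (ij.1 : ℕ) * b ^ (ij.2 : ℕ)) : A ⧸ φ.range)) := by
    intro q
    obtain ⟨x, rfl⟩ := QuotientGroup.mk_surjective q
    have hx : x ∈ Subgroup.closure {a, b} := by rw [h]; trivial
    obtain ⟨m, n, rfl⟩ := Subgroup.mem_closure_pair.1 hx
    have hpz : (0 : ℤ) < p := by exact_mod_cast hp
    have hm0 : 0 ≤ m % p := Int.emod_nonneg _ hpz.ne'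
    have hn0 : 0 ≤ n % p := Int.emod_nonneg _ hpz.ne'
    have hm1 : m % p < p := Int.emod_lt_of_pos _ hpz
    have hn1 : n % p < p := Int.emod_lt_of_pos _ hpz
    refine ⟨(⟨(m % p).toNat, by omega⟩, ⟨(n % p).toNat, by omega⟩), ?_⟩
    simp only
    rw [QuotientGroup.eq]
    refine ⟨a ^ (m / p) * b ^ (n / p), ?_⟩
    rw [hφ, powMonoidHom_apply, mul_pow, ← zpow_natCast (a ^ (m / p)), ← zpow_natCast (b ^ (n / p)),
      ← zpow_mul, ← zpow_mul, ← zpow_natCast a, ← zpow_natCast b, Int.toNat_of_nonneg hm0,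
      Int.toNat_of_nonneg hn0]
    have e1 : a ^ m = a ^ (m % p) * a ^ (m / p * p) := by
      rw [← zpow_add]
      congr 1
      rw [mul_comm (m / p)]
      exact (Int.emod_add_mul_ediv m p).symm
    have e2 : b ^ n = b ^ (n % p) * b ^ (n / p * p) := by
      rw [← zpow_add]
      congr 1
      rw [mul_comm (n / p)]
      exact (Int.emod_add_mul_ediv n p).symm
    rw [e1, e2]
    simp only [mul_inv_rev]
    generalize a ^ (m % p) = u1
    generalize b ^ (n % p) = u2
    generalize a ^ (m / p * p) = v1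
    generalize b ^ (n / p * p) = v2
    calc v1 * v2 = (u2⁻¹ * u2) * (u1⁻¹ * u1) * (v1 * v2) := by simp
      _ = u2⁻¹ * u1⁻¹ * (u1 * v1 * (u2 * v2)) := by
        simp only [mul_assoc, mul_left_comm, mul_comm]
  have := Nat.card_le_card_of_surjective _ hs
  rw [Nat.card_prod, Nat.card_fin] at this
  rw [pow_two]
  exact this

theorem not_two_gen (p : ℕ) (hp : p.Prime) (hp2 : p ≠ 2) (T : Fin 3 → MulAut A) (z : Fin 3 → A)
    (hz : ∀ i, orderOf (z i) = p) (h1 : ∀ i, T i (z i) = (z i)⁻¹)
    (h2 : ∀ i j, i ≠ j → T i (z j) = z j) : ¬ ∃ a b : A, Subgroup.closure {a, b} = ⊤ := by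
  classical
  rintro ⟨a, b, hab⟩
  have hle := card_ker_pow_le p hp.pos a b hab
  let w : (Fin 3 → Fin p) → A := fun e => ∏ t, z t ^ (e t : ℕ)
  have hw : ∀ e s, w e * (T s (w e))⁻¹ = z s ^ (2 * (e s : ℕ)) := by
    intro e s
    simp only [w]
    rw [map_prod, ← Finset.prod_inv_distrib, ← Finset.prod_mul_distrib]
    rw [Finset.prod_eq_single s]
    · rw [map_pow, h1 s, inv_pow, inv_inv, ← pow_add, two_mul]
    · intro t _ hts
      rw [map_pow, h2 s t (Ne.symm hts), mul_inv_cancel]
    · intro h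
      exact absurd (Finset.mem_univ s) h
  have hinj : Function.Injective (fun e : Fin 3 → Fin p =>
      (⟨w e, by
        rw [MonoidHom.mem_ker, powMonoidHom_apply]
        simp only [w]
        rw [← Finset.prod_pow]
        apply Finset.prod_eq_one
        intro t _
        have hzt : z t ^ p = 1 := by
          have := pow_orderOf_eq_one (z t)
          rwa [hz t] at this
        rw [← pow_mul, mul_comm, pow_mul, hzt, one_pow]⟩ :
        (powMonoidHom p : A →* A).ker)) := by
    intro e e' hee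
    have h3 : w e = w e' := congrArg Subtype.val hee
    funext s
    have h4 : z s ^ (2 * (e s : ℕ)) = z s ^ (2 * (e' s : ℕ)) := by
      rw [← hw e s, ← hw e' s, h3]
    rw [pow_eq_pow_iff_modEq, hz s] at h4
    have hc : Nat.gcd p 2 = 1 := (Nat.coprime_primes hp Nat.prime_two).2 hp2
    have h5 : (e s : ℕ) ≡ (e' s : ℕ) [MOD p] := Nat.ModEq.cancel_left_of_coprime hc h4
    apply Fin.ext
    have := Nat.ModEq.eq_of_lt_of_lt h5 (e s).2 (e' s).2
    exact this
  have hge := Nat.card_le_card_of_injective _ hinj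
  rw [Nat.card_fun, Nat.card_fin, Nat.card_fin] at hge
  have : p ^ 3 ≤ p ^ 2 := hge.trans hle
  have h6 : p ^ 2 < p ^ 3 := Nat.pow_lt_pow_right hp.one_lt (by norm_num)
  omega

end comm

end Cfsg.Agent.Lib.Helper26.AE
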