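import Cfsg.Agent.Lib.Helper26.AutE2
import Cfsg.Agent.Lib.Helper26.AutE2b

/-! Thompson's lemma on elementary abelian groups of order 8 of automorphisms of an odd `p`-group with
few noncyclic centralizers. -/

set_option autoImplicit false

namespace Cfsg.Agent.Lib.Helper26.AE

open Subgroup

/-- `T` is broad when its fixed points are not a cyclic subgroup. -/
def Broad {P : Type*} [Group P] (T : MulAut P) : Prop :=
  ¬ ∃ g : P, ∀ x : P, (T x = x ↔ x ∈ Subgroup.zpowers g)

theorem main_e8 {P : Type*} [Group P] [Finite P] (p : ℕ) (hp : p.Prime) (hp2 : p ≠ 2)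
    (hP : IsPGroup p P) (I : Subgroup (MulAut P))
    (hIcomm : ∀ a ∈ I, ∀ b ∈ I, a * b = b * a) (hIsq : ∀ a ∈ I, a * a = 1)
    (hI8 : Nat.card ↥I = 8) (I₀ : Subgroup (MulAut P)) (hI0le : I₀ ≤ I)
    (hdisj : ∀ T ∈ I₀, T ≠ 1 → ¬ Broad T)
    (hprod : ∀ T ∈ I, ∀ T' ∈ I, T ≠ 1 → T' ≠ 1 → Broad T → Broad T' → T * T' ∈ I₀) :
    IsMulCommutative P ∧ (∃ a b c : P, Subgroup.closure {a, b, c} = ⊤) ∧
      (¬ ∃ a b : P, Subgroup.closure {a, b} = ⊤) ∧
      Nat.card {T : MulAut P // T ∈ I ∧ T ≠ 1 ∧ Broad T} = 3 ∧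
      Subgroup.closure {T : MulAut P | T ∈ I ∧ T ≠ 1 ∧ Broad T} = I ∧
      (I₀ : Set (MulAut P)) = {S : MulAut P | ∃ T T' : MulAut P, T ∈ I ∧ T' ∈ I ∧ T ≠ 1 ∧ T' ≠ 1 ∧
        Broad T ∧ Broad T' ∧ S = T * T'} := by
  classical
  haveI : Fact p.Prime := ⟨hp⟩
  have hsol : Group.IsSolvable P := by
    haveI := hP.isNilpotent
    infer_instance
  obtain ⟨n, hn⟩ := hP.exists_card_eq
  have hodd : Odd (Nat.card P) := by
    rw [hn]
    exact Odd.pow (hp.odd_of_ne_two hp2)
  obtain ⟨T, y, hTI, hy1, hsign, hTinv, hTfix, hycomm, hfaith⟩ :=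
    aut_dual_system hsol hodd I hIcomm hIsq 3 (by rw [hI8]; norm_num)
  have hne : ∀ i, y i ≠ (y i)⁻¹ := fun i h => hy1 i (eq_one_of_eq_inv hp hp2 hP h)
  have hTy : ∀ i j, T i (y j) = if i = j then (y j)⁻¹ else y j := by
    intro i j
    split_ifs with h
    · subst h; exact hTinv i
    · exact hTfix i j h
  have hT1 : ∀ i, T i ≠ 1 := by
    intro i h
    apply hne i
    have := hTinv i
    rw [h] at this
    exact this
  have hTsq : ∀ i, T i * T i = 1 := fun i => hIsq _ (hTI i)
  have hTc : ∀ i j, T i * T j = T j * T i := fun i j => hIcomm _ (hTI i) _ (hTI j)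
  have two : ∀ i : Fin 3, ∃ j k : Fin 3, j ≠ i ∧ k ≠ i ∧ j ≠ k := by decide
  have third : ∀ i j : Fin 3, i ≠ j → ∃ k : Fin 3, k ≠ i ∧ k ≠ j := by decide
  have pairs : ∀ i j k j' k' : Fin 3, j ≠ i → k ≠ i → j ≠ k → j' ≠ i → k' ≠ i → j' ≠ k' →
      (j' = j ∧ k' = k) ∨ (j' = k ∧ k' = j) := by decide
  have hbroad : ∀ i, Broad (T i) := by
    rintro i ⟨g, hg⟩
    obtain ⟨j, k, hji, hki, hjk⟩ := two i
    rcases cyc_fix_dichotomy hp hp2 hP (hTsq j) (hTc i j) hg with h | h
    · have := h (y j) (hTfix i j (Ne.symm hji))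
      rw [hTinv j] at this
      exact hne j this.symm
    · have := h (y k) (hTfix i k (Ne.symm hki))
      rw [hTfix j k hjk] at this
      exact hne k this
  have hTT0 : ∀ i j, T i * T j ∈ I₀ := fun i j =>
    hprod _ (hTI i) _ (hTI j) (hT1 i) (hT1 j) (hbroad i) (hbroad j)
  have hTnot : ∀ i, T i ∉ I₀ := fun i h => hdisj _ h (hT1 i) (hbroad i)
  have hTT1 : ∀ i j, i ≠ j → T i * T j ≠ 1 := by
    intro i j hij h
    have := congrArg (fun f : MulAut P => f (y i)) h
    simp only [MulAut.mul_apply, MulAut.one_apply] at this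
    rw [hTfix j i (Ne.symm hij), hTinv i] at this
    exact hne i this.symm
  have hsep : ∀ a ∈ I, ∀ b ∈ I, (∀ i, a (y i) = b (y i)) → a = b := by
    intro a ha b hb h
    have h1 : b⁻¹ * a = 1 := hfaith _ (mul_mem (inv_mem hb) ha) (by
      intro i
      rw [MulAut.mul_apply, h i]
      exact MulAut.inv_apply_self _ b (y i))
    exact (inv_mul_eq_one.1 h1).symm
  have hclass : ∀ a ∈ I, a = 1 ∨ (∃ i, a = T i) ∨ (∃ i j, i ≠ j ∧ a = T i * T j) ∨
      a = T 0 * T 1 * T 2 := by
    intro a ha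
    rcases hsign 0 a ha with h0 | h0 <;> rcases hsign 1 a ha with h1 | h1 <;>
      rcases hsign 2 a ha with h2 | h2
    · left
      apply hsep a ha 1 (one_mem _)
      intro i
      fin_cases i <;> simp [h0, h1, h2]
    · right; left
      refine ⟨2, hsep a ha _ (hTI 2) ?_⟩
      intro i
      fin_cases i <;> simp [h0, h1, h2, hTy]
    · right; left
      refine ⟨1, hsep a ha _ (hTI 1) ?_⟩
      intro i
      fin_cases i <;> simp [h0, h1, h2, hTy]
    · right; right; left
      refine ⟨1, 2, by decide, hsep a ha _ (mul_mem (hTI 1) (hTI 2)) ?_⟩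
      intro i
      fin_cases i <;> simp [h0, h1, h2, hTy, MulAut.mul_apply]
    · right; left
      refine ⟨0, hsep a ha _ (hTI 0) ?_⟩
      intro i
      fin_cases i <;> simp [h0, h1, h2, hTy]
    · right; right; left
      refine ⟨0, 2, by decide, hsep a ha _ (mul_mem (hTI 0) (hTI 2)) ?_⟩
      intro i
      fin_cases i <;> simp [h0, h1, h2, hTy, MulAut.mul_apply]
    · right; right; left
      refine ⟨0, 1, by decide, hsep a ha _ (mul_mem (hTI 0) (hTI 1)) ?_⟩
      intro i
      fin_cases i <;> simp [h0, h1, h2, hTy, MulAut.mul_apply]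
    · right; right; right
      refine hsep a ha _ (mul_mem (mul_mem (hTI 0) (hTI 1)) (hTI 2)) ?_
      intro i
      fin_cases i <;> simp [h0, h1, h2, hTy, MulAut.mul_apply]
  have hgex : ∀ i : Fin 3, ∃ g : P, ∀ j k : Fin 3, j ≠ i → k ≠ i → j ≠ k →
      ∀ x : P, ((T j * T k) x = x ↔ x ∈ Subgroup.zpowers g) := by
    intro i
    obtain ⟨j, k, hji, hki, hjk⟩ := two i
    obtain ⟨g, hg⟩ := not_not.1 (hdisj _ (hTT0 j k) (hTT1 j k hjk))
    refine ⟨g, ?_⟩
    intro j' k' hj' hk' hjk'
    rcases pairs i j k j' k' hji hki hjk hj' hk' hjk' with ⟨rfl, rfl⟩ | ⟨rfl, rfl⟩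
    · exact hg
    · rw [hTc]; exact hg
  choose g hg using hgex
  have hyfix : ∀ i j k, j ≠ i → k ≠ i → (T j * T k) (y i) = y i := by
    intro i j k hj hk
    rw [MulAut.mul_apply, hTfix k i hk, hTfix j i hj]
  have hCinv : ∀ i, ∀ x ∈ zpowers (g i), T i x = x⁻¹ := by
    intro i x hx
    obtain ⟨j, k, hji, hki, hjk⟩ := two i
    have hgi := hg i j k hji hki hjk
    have hc : (T j * T k) * T i = T i * (T j * T k) :=
      hIcomm _ (mul_mem (hTI j) (hTI k)) _ (hTI i)
    rcases cyc_fix_dichotomy hp hp2 hP (hTsq i) hc hgi with h | h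
    · exfalso
      have := h (y i) (hyfix i j k hji hki)
      rw [hTinv i] at this
      exact hne i this.symm
    · exact h x ((hgi x).2 hx)
  have hCfix : ∀ i l, l ≠ i → ∀ x ∈ zpowers (g i), T l x = x := by
    intro i l hl x hx
    obtain ⟨j, k, hji, hki, hjk⟩ := two i
    have hgi := hg i j k hji hki hjk
    have hc : (T j * T k) * T l = T l * (T j * T k) :=
      hIcomm _ (mul_mem (hTI j) (hTI k)) _ (hTI l)
    rcases cyc_fix_dichotomy hp hp2 hP (hTsq l) hc hgi with h | h
    · exact h x ((hgi x).2 hx)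
    · exfalso
      have := h (y i) (hyfix i j k hji hki)
      rw [hTfix l i hl] at this
      exact hne i this
  have hgcomm : ∀ i j, i ≠ j → g i * g j = g j * g i := by
    intro i j hij
    obtain ⟨k, hki, hkj⟩ := third i j hij
    have hS : (T i * T j) * (T i * T j) = 1 := hIsq _ (mul_mem (hTI i) (hTI j))
    have hRS : T k * (T i * T j) = (T i * T j) * T k :=
      hIcomm _ (hTI k) _ (mul_mem (hTI i) (hTI j))
    apply comm_of_fpf hS hRS
    · intro x hx1 hx2
      have hxk : x ∈ zpowers (g k) := (hg k i j (Ne.symm hki) (Ne.symm hkj) hij x).1 hx2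
      have := hCinv k x hxk
      rw [hx1] at this
      exact eq_one_of_eq_inv hp hp2 hP this
    · exact hCfix i k hki _ (mem_zpowers _)
    · exact hCfix j k hkj _ (mem_zpowers _)
  have hclass0 : ∀ a ∈ I₀, a = 1 ∨ ∃ i j, i ≠ j ∧ a = T i * T j := by
    intro a ha
    rcases hclass a (hI0le ha) with h | ⟨i, h⟩ | ⟨i, j, hij, h⟩ | h
    · left; exact h
    · exact absurd (h ▸ ha) (hTnot i)
    · right; exact ⟨i, j, hij, h⟩
    · exfalso
      apply hTnot 2
      have h1 : (T 0 * T 1)⁻¹ * a ∈ I₀ := mul_mem (inv_mem (hTT0 0 1)) ha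
      rw [h, inv_mul_cancel_left] at h1
      exact h1
  set Q : Subgroup P := closure {g 0, g 1, g 2} with hQ
  have hgQ : ∀ i, g i ∈ Q := by
    intro i
    fin_cases i <;> exact subset_closure (by simp)
  have hQtop : Q = ⊤ := by
    apply aut_generation I₀ (fun a ha b hb => hIcomm a (hI0le ha) b (hI0le hb)) ?_ ?_ Q ?_
    · intro hc
      obtain ⟨⟨c, hc0⟩, hgen⟩ := hc.exists_generator
      have key : ∀ a ∈ I₀, a = 1 ∨ a = c := by
        intro a ha
        obtain ⟨m, hm⟩ := Subgroup.mem_zpowers_iff.1 (hgen ⟨a, ha⟩)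
        have hm' : c ^ m = a := by simpa using congrArg Subtype.val hm
        have hcc : c ^ (2 : ℤ) = 1 := by
          rw [zpow_two]; exact hIsq c (hI0le hc0)
        rcases Int.even_or_odd' m with ⟨m, rfl | rfl⟩
        · left; rw [← hm', zpow_mul, hcc, one_zpow]
        · right; rw [← hm', zpow_add, zpow_mul, hcc, one_zpow, one_mul, zpow_one]
      have h01 := (key _ (hTT0 0 1)).resolve_left (hTT1 0 1 (by decide))
      have h02 := (key _ (hTT0 0 2)).resolve_left (hTT1 0 2 (by decide))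
      have h12 : T 1 = T 2 := mul_left_cancel (h01.trans h02.symm)
      have h3 := hTinv 1
      rw [h12, hTfix 2 1 (by decide)] at h3
      exact hne 1 h3
    · have h1 : Nat.card I₀ ∣ 2 ^ 3 := by
        have := Subgroup.card_dvd_of_le hI0le
        rw [hI8] at this
        simpa using this
      rw [hn]
      exact Nat.Coprime.coprime_dvd_left h1
        (Nat.Coprime.pow _ _ ((Nat.coprime_primes Nat.prime_two hp).2 (Ne.symm hp2)))
    · intro a ha ha1 x hx
      rcases hclass0 a ha with h | ⟨i, j, hij, h⟩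
      · exact absurd h ha1
      · obtain ⟨k, hki, hkj⟩ := third i j hij
        rw [h] at hx
        have := (hg k i j (Ne.symm hki) (Ne.symm hkj) hij x).1 hx
        exact (Subgroup.zpowers_le.2 (hgQ k)) this
  have hgc : ∀ i j, g i * g j = g j * g i := by
    intro i j
    by_cases h : i = j
    · rw [h]
    · exact hgcomm i j h
  have hPcomm : ∀ a b : P, a * b = b * a := by
    have hk : ∀ x ∈ ({g 0, g 1, g 2} : Set P), ∀ y ∈ ({g 0, g 1, g 2} : Set P), x * y = y * x := by
      rintro x (rfl | rfl | rfl) y (rfl | rfl | rfl) <;> exact hgc _ _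
    intro a b
    have ha : a ∈ Q := by rw [hQtop]; trivial
    have hb : b ∈ Q := by rw [hQtop]; trivial
    have := (Subgroup.closureCommGroupOfComm hk).mul_comm ⟨a, ha⟩ ⟨b, hb⟩
    exact congrArg Subtype.val this
  have hZinv : ∀ x : P, (T 0 * T 1 * T 2) x = x⁻¹ := by
    let J : Subgroup P :=
      { carrier := {x | (T 0 * T 1 * T 2) x = x⁻¹}
        mul_mem' := by
          intro a b ha hb
          simp only [Set.mem_ofPred_eq] at *
          rw [map_mul, ha, hb, mul_inv_rev, hPcomm]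
        one_mem' := by simp
        inv_mem' := by
          intro a ha
          simp only [Set.mem_ofPred_eq] at *
          rw [map_inv, ha] }
    have hQJ : Q ≤ J := by
      rw [hQ, closure_le]
      rintro x (rfl | rfl | rfl)
      · change (T 0 * T 1 * T 2) (g 0) = (g 0)⁻¹
        rw [MulAut.mul_apply, MulAut.mul_apply, hCfix 0 2 (by decide) _ (mem_zpowers _),
          hCfix 0 1 (by decide) _ (mem_zpowers _), hCinv 0 _ (mem_zpowers _)]
      · change (T 0 * T 1 * T 2) (g 1) = (g 1)⁻¹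
        rw [MulAut.mul_apply, MulAut.mul_apply, hCfix 1 2 (by decide) _ (mem_zpowers _),
          hCinv 1 _ (mem_zpowers _), map_inv, hCfix 1 0 (by decide) _ (mem_zpowers _)]
      · change (T 0 * T 1 * T 2) (g 2) = (g 2)⁻¹
        rw [MulAut.mul_apply, MulAut.mul_apply, hCinv 2 _ (mem_zpowers _), map_inv, map_inv,
          hCfix 2 1 (by decide) _ (mem_zpowers _), hCfix 2 0 (by decide) _ (mem_zpowers _)]
    intro x
    have hx : x ∈ Q := by rw [hQtop]; trivial
    exact hQJ hx
  have hZnb : ¬ Broad (T 0 * T 1 * T 2) := by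
    apply not_not.2
    refine ⟨1, ?_⟩
    intro x
    rw [hZinv, zpowers_one_eq_bot, mem_bot]
    constructor
    · intro h
      exact eq_one_of_eq_inv hp hp2 hP h.symm
    · rintro rfl
      exact inv_one
  have hBset : {S : MulAut P | S ∈ I ∧ S ≠ 1 ∧ Broad S} = {T 0, T 1, T 2} := by
    ext S
    constructor
    · rintro ⟨hS, hS1, hSb⟩
      rcases hclass S hS with h | ⟨i, h⟩ | ⟨i, j, hij, h⟩ | h
      · exact absurd h hS1
      · rw [h]
        fin_cases i <;> simp
      · exact absurd hSb (hdisj S (h ▸ hTT0 i j) hS1)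
      · exact absurd hSb (h ▸ hZnb)
    · rintro (rfl | rfl | rfl) <;> exact ⟨hTI _, hT1 _, hbroad _⟩
  have hTne : ∀ i j, i ≠ j → T i ≠ T j := by
    intro i j hij h
    apply hTT1 i j hij
    rw [h]
    exact hTsq j
  refine ⟨⟨⟨hPcomm⟩⟩, ⟨g 0, g 1, g 2, hQtop⟩, ?_, ?_, ?_, ?_⟩
  · -- not two-generated
    have hord : ∀ i, p ∣ orderOf (y i) := by
      intro i
      obtain ⟨m, hm⟩ := hP (y i)
      obtain ⟨m', -, hm'⟩ := (Nat.dvd_prime_pow hp).1 (orderOf_dvd_of_pow_eq_one hm)
      rw [hm']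
      rcases Nat.eq_zero_or_pos m' with h0 | h0
      · exfalso
        rw [h0, pow_zero] at hm'
        exact hy1 i (orderOf_eq_one_iff.1 hm')
      · exact dvd_pow_self p h0.ne'
    have hz : ∀ i, orderOf (y i ^ (orderOf (y i) / p)) = p := fun i =>
      orderOf_pow_orderOf_div (orderOf_pos _).ne' (hord i)
    letI : CommGroup P := { (inferInstance : Group P) with mul_comm := hPcomm }
    exact not_two_gen p hp hp2 T (fun i => y i ^ (orderOf (y i) / p)) hz
      (fun i => by rw [map_pow, hTinv i, inv_pow])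
      (fun i j hij => by rw [map_pow, hTfix i j hij])
  · have e : Nat.card {S : MulAut P // S ∈ I ∧ S ≠ 1 ∧ Broad S} =
        Set.ncard {S : MulAut P | S ∈ I ∧ S ≠ 1 ∧ Broad S} := rfl
    rw [e, hBset]
    exact Set.ncard_eq_three.2 ⟨T 0, T 1, T 2, hTne 0 1 (by decide), hTne 0 2 (by decide),
      hTne 1 2 (by decide), rfl⟩
  · rw [hBset]
    apply le_antisymm
    · rw [closure_le]
      rintro x (rfl | rfl | rfl) <;> exact hTI _
    · have hTm : ∀ i, T i ∈ closure ({T 0, T 1, T 2} : Set (MulAut P)) := by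
        intro i
        fin_cases i <;> exact subset_closure (by simp)
      intro a ha
      rcases hclass a ha with h | ⟨i, h⟩ | ⟨i, j, hij, h⟩ | h
      · rw [h]; exact one_mem _
      · rw [h]; exact hTm i
      · rw [h]; exact mul_mem (hTm i) (hTm j)
      · rw [h]; exact mul_mem (mul_mem (hTm 0) (hTm 1)) (hTm 2)
  · ext S
    constructor
    · intro hS
      rcases hclass0 S hS with h | ⟨i, j, hij, h⟩
      · exact ⟨T 0, T 0, hTI 0, hTI 0, hT1 0, hT1 0, hbroad 0, hbroad 0, by rw [h, hTsq 0]⟩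
      · exact ⟨T i, T j, hTI i, hTI j, hT1 i, hT1 j, hbroad i, hbroad j, h⟩
    · rintro ⟨U, U', hU, hU', hU1, hU1', hb, hb', rfl⟩
      exact hprod U hU U' hU' hU1 hU1' hb hb'

end Cfsg.Agent.Lib.Helper26.AE
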