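import Mathlib
import Cfsg.Agent.Lib.Helper1.Cores
import Cfsg.Agent.Lib.Helper1.PGroup
import Cfsg.Agent.Lib.Helper3.AutOrbit

set_option autoImplicit false

namespace Cfsg.Agent.Lib.Helper26

namespace X320

variable {G : Type*} [Group G]

/-- stabiliser of the coset `h Z` (for a central subgroup `Z`). -/
def stab (Z : Subgroup G) (hZc : ∀ c ∈ Z, ∀ g : G, g * c = c * g) (h : G) : Subgroup G where
  carrier := {g | g * h * g⁻¹ * h⁻¹ ∈ Z}
  one_mem' := by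
    show (1 : G) * h * (1 : G)⁻¹ * h⁻¹ ∈ Z
    simp [Z.one_mem]
  mul_mem' := by
    intro a b ha hb
    have e : a * b * h * (a * b)⁻¹ * h⁻¹
        = (a * (b * h * b⁻¹ * h⁻¹)) * a⁻¹ * (a * h * a⁻¹ * h⁻¹) := by group
    show a * b * h * (a * b)⁻¹ * h⁻¹ ∈ Z
    rw [e, hZc _ hb a, mul_inv_cancel_right]
    exact Z.mul_mem hb ha
  inv_mem' := by
    intro a ha
    have e : a⁻¹ * h * a⁻¹⁻¹ * h⁻¹ = a⁻¹ * ((a * h * a⁻¹ * h⁻¹)⁻¹ * a) := by group
    show a⁻¹ * h * a⁻¹⁻¹ * h⁻¹ ∈ Z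
    rw [e, ← hZc _ (Z.inv_mem ha) a, inv_mul_cancel_left]
    exact Z.inv_mem ha

theorem mem_stab {Z : Subgroup G} {hZc : ∀ c ∈ Z, ∀ g : G, g * c = c * g} {h g : G} :
    g ∈ stab Z hZc h ↔ g * h * g⁻¹ * h⁻¹ ∈ Z := Iff.rfl

theorem stab_symm {Z : Subgroup G} {hZc : ∀ c ∈ Z, ∀ g : G, g * c = c * g} {h g : G}
    (hg : g ∈ stab Z hZc h) : h ∈ stab Z hZc g := by
  rw [mem_stab] at hg ⊢
  have e : h * g * h⁻¹ * g⁻¹ = (g * h * g⁻¹ * h⁻¹)⁻¹ := by group
  rw [e]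
  exact Z.inv_mem hg

theorem stab_conj {Z : Subgroup G} {hZc : ∀ c ∈ Z, ∀ g : G, g * c = c * g} {h g : G} (a : G)
    (hg : g ∈ stab Z hZc h) : a * g * a⁻¹ ∈ stab Z hZc (a * h * a⁻¹) := by
  rw [mem_stab] at hg ⊢
  have e : a * g * a⁻¹ * (a * h * a⁻¹) * (a * g * a⁻¹)⁻¹ * (a * h * a⁻¹)⁻¹
      = a * (g * h * g⁻¹ * h⁻¹) * a⁻¹ := by group
  rw [e, hZc _ hg a, mul_inv_cancel_right]
  exact hg

theorem sq_eq_one {Z : Subgroup G} (hZ2 : Nat.card Z = 2) {c : G} (hc : c ∈ Z) : c ^ 2 = 1 := by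
  have h := pow_card_eq_one' (G := Z) (x := ⟨c, hc⟩)
  rw [hZ2] at h
  exact congrArg Subtype.val h

/-- an element of order dividing 5 fixing `h Z` centralises `h`. -/
theorem comm_of_stab {Z : Subgroup G} {hZc : ∀ c ∈ Z, ∀ g : G, g * c = c * g}
    (hZ2 : Nat.card Z = 2) {g h : G} (hg5 : g ^ 5 = 1) (hg : g ∈ stab Z hZc h) :
    g * h * g⁻¹ = h := by
  rw [mem_stab] at hg
  set c := g * h * g⁻¹ * h⁻¹ with hc
  have h1 : g * h * g⁻¹ = c * h := by rw [hc]; group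
  have h2 : ∀ n : ℕ, g ^ n * h * (g ^ n)⁻¹ = c ^ n * h := by
    intro n
    induction n with
    | zero => simp
    | succ n ih =>
      calc g ^ (n + 1) * h * (g ^ (n + 1))⁻¹ = g * (g ^ n * h * (g ^ n)⁻¹) * g⁻¹ := by
            rw [pow_succ']; group
        _ = g * (c ^ n * h) * g⁻¹ := by rw [ih]
        _ = (g * c ^ n) * h * g⁻¹ := by group
        _ = c ^ n * (g * h * g⁻¹) := by rw [hZc _ (Z.pow_mem hg n) g]; group
        _ = c ^ (n + 1) * h := by rw [h1, pow_succ]; group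
  have h3 := h2 5
  rw [hg5] at h3
  have h4 : c ^ 5 = 1 := by
    have : c ^ 5 * h = 1 * h := by rw [← h3]; group
    exact mul_right_cancel this
  have h5 : c ^ 2 = 1 := sq_eq_one hZ2 hg
  have h6 : c = 1 := by
    calc c = c ^ 5 * ((c ^ 2) ^ 2)⁻¹ := by group
      _ = 1 := by rw [h4, h5]; simp
  rw [h1, h6, one_mul]


section main

variable [Finite G] (hG : Nat.card G = 320) (H Z : Subgroup G) [hHn : H.Normal]
  (h32 : Nat.card H = 32) (hZH : Z ≤ H) (hZc : ∀ c ∈ Z, ∀ g : G, g * c = c * g)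
  (hZ2 : Nat.card Z = 2)
  (hcomm : ∀ a ∈ H, ∀ b ∈ H, a * b * a⁻¹ * b⁻¹ ∈ Z)
  (hCH : Subgroup.centralizer (H : Set G) ≤ H)

include h32 hCH in
theorem not_centralize {w : G} (hw : orderOf w = 5) : ¬ ∀ h ∈ H, w * h * w⁻¹ = h := by
  intro hall
  have h1 : w ∈ Subgroup.centralizer (H : Set G) := by
    rw [Subgroup.mem_centralizer_iff]
    intro h hh
    have := hall h hh
    calc h * w = (w * h * w⁻¹) * w := by rw [this]
      _ = w * h := by group
  have h2 : w ∈ H := hCH h1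
  have h3 : orderOf (⟨w, h2⟩ : H) ∣ Nat.card H := orderOf_dvd_natCard _
  rw [Subgroup.orderOf_mk, hw, h32] at h3
  omega

include h32 hZH hZc hZ2 hCH in
/-- the fixed points of an element of order 5 on `H`. -/
theorem fix_le {x : G} (hx : orderOf x = 5) {h : G} (hh : h ∈ H) (hf : x * h * x⁻¹ = h) :
    h ∈ Z := by
  haveI : Fact (Nat.Prime 5) := ⟨by norm_num⟩
  have hx5 : x ^ 5 = 1 := by rw [← hx]; exact pow_orderOf_eq_one x
  have ha : (MulAut.conj x) ^ 5 = 1 := by rw [← map_pow, hx5, map_one]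
  have hmod := Helper3.card_modEq_card_inf_fixSub (MulAut.conj x) ha H
    (fun y hy => by simpa using hHn.conj_mem y hy x)
    (fun y hy => by simpa using hHn.conj_mem y hy x⁻¹)
  set F := H ⊓ Helper3.fixSub (MulAut.conj x) with hF
  have hdvd : Nat.card F ∣ 32 := by rw [← h32]; exact Subgroup.card_dvd_of_le inf_le_left
  have hZF : Z ≤ F := by
    intro c hc
    refine Subgroup.mem_inf.2 ⟨hZH hc, ?_⟩
    rw [Helper3.mem_fixSub]
    show x * c * x⁻¹ = c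
    rw [hZc c hc x, mul_inv_cancel_right]
  have hne : Nat.card F ≠ 32 := by
    intro h1
    have h2 : F = H := Subgroup.eq_of_le_of_card_ge inf_le_left (by rw [h1, h32])
    apply not_centralize H h32 hCH hx
    intro y hy
    have : y ∈ F := by rw [h2]; exact hy
    exact (Subgroup.mem_inf.1 this).2
  have hcard : Nat.card F = 2 := by
    rw [h32] at hmod
    have hle : Nat.card F ≤ 32 := Nat.le_of_dvd (by norm_num) hdvd
    have hm : 32 % 5 = Nat.card F % 5 := hmod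
    generalize Nat.card F = n at *
    interval_cases n <;> omega
  have hEq : Z = F := Subgroup.eq_of_le_of_card_ge hZF (by rw [hcard, hZ2])
  rw [hEq]
  exact Subgroup.mem_inf.2 ⟨hh, hf⟩


include h32 hZH hZc hZ2 hCH in
theorem mem_Z_of_stab {x : G} (hx : orderOf x = 5) {h : G} (hh : h ∈ H)
    (hf : x ∈ stab Z hZc h) : h ∈ Z := by
  have hx5 : x ^ 5 = 1 := by rw [← hx]; exact pow_orderOf_eq_one x
  exact fix_le H Z h32 hZH hZc hZ2 hCH hx hh (comm_of_stab hZ2 hx5 hf)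

include hcomm in
theorem H_le_stab {h : G} (hh : h ∈ H) : H ≤ stab Z hZc h := fun a ha => hcomm a ha h hh

include hG h32 in
theorem card_M {x : G} (hx : orderOf x = 5) :
    Nat.card (Subgroup.zpowers x ⊔ H : Subgroup G) = 160 := by
  have h1 : Nat.card (Subgroup.zpowers x ⊔ H : Subgroup G) ∣ 5 * 32 := by
    have := Helper1.card_sup_dvd_of_normal (Subgroup.zpowers x) H
    rwa [Nat.card_zpowers, hx, h32] at this
  have h2 : 32 ∣ Nat.card (Subgroup.zpowers x ⊔ H : Subgroup G) := by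
    rw [← h32]; exact Subgroup.card_dvd_of_le le_sup_right
  have h3 : 5 ∣ Nat.card (Subgroup.zpowers x ⊔ H : Subgroup G) := by
    have := Subgroup.card_dvd_of_le (le_sup_left : Subgroup.zpowers x ≤ Subgroup.zpowers x ⊔ H)
    rwa [Nat.card_zpowers, hx] at this
  have h4 : 5 * 32 ∣ Nat.card (Subgroup.zpowers x ⊔ H : Subgroup G) :=
    Nat.Coprime.mul_dvd_of_dvd_of_dvd (by norm_num) h3 h2
  exact Nat.dvd_antisymm h1 h4

include hG h32 in
theorem T_notMem_M {x T : G} (hx : orderOf x = 5) (hT : orderOf T = 2) (hTH : T ∉ H) :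
    T ∉ (Subgroup.zpowers x ⊔ H : Subgroup G) := by
  intro hTM
  have h1 : Nat.card (Subgroup.zpowers T ⊔ H : Subgroup G) ∣ 2 * 32 := by
    have := Helper1.card_sup_dvd_of_normal (Subgroup.zpowers T) H
    rwa [Nat.card_zpowers, hT, h32] at this
  have h2 : Nat.card (Subgroup.zpowers T ⊔ H : Subgroup G) ∣ 160 := by
    rw [← card_M hG H h32 hx]
    apply Subgroup.card_dvd_of_le
    exact sup_le (by rw [Subgroup.zpowers_le]; exact hTM) le_sup_right
  have h3 : Nat.card (Subgroup.zpowers T ⊔ H : Subgroup G) ∣ 32 := by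
    have := Nat.dvd_gcd h1 h2
    norm_num at this
    exact this
  have h4 : H = Subgroup.zpowers T ⊔ H :=
    Subgroup.eq_of_le_of_card_ge le_sup_right (by rw [h32]; exact Nat.le_of_dvd (by norm_num) h3)
  apply hTH
  rw [h4]
  exact (le_sup_left : Subgroup.zpowers T ≤ _) (Subgroup.mem_zpowers T)

include hG h32 in
theorem y_mem_M {x T : G} (hx : orderOf x = 5) (hT : orderOf T = 2) (hTH : T ∉ H) :
    T * (x * T * x⁻¹) ∈ (Subgroup.zpowers x ⊔ H : Subgroup G) := by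
  set M := (Subgroup.zpowers x ⊔ H : Subgroup G) with hM
  have hidx : M.index = 2 := by
    have h1 := Subgroup.card_mul_index M
    rw [card_M hG H h32 hx, hG] at h1
    omega
  have hxM : x ∈ M := (le_sup_left : Subgroup.zpowers x ≤ _) (Subgroup.mem_zpowers x)
  have hTM : T ∉ M := T_notMem_M hG H h32 hx hT hTH
  rw [Subgroup.mul_mem_iff_of_index_two hidx]
  constructor
  · intro h; exact absurd h hTM
  · intro h
    exfalso
    apply hTM
    have : T = x⁻¹ * (x * T * x⁻¹) * x := by group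
    rw [this]
    exact M.mul_mem (M.mul_mem (M.inv_mem hxM) h) hxM

include hG h32 hZH hZ2 hcomm hCH in
/-- Case A: `[T,x] ∉ H`. -/
theorem inf_eq_Z {x T : G} (hx : orderOf x = 5) (hT : orderOf T = 2) (hTH : T ∉ H)
    (hy : T * (x * T * x⁻¹) ∉ H) {h : G} (hh : h ∈ H) (h1 : h ∈ stab Z hZc T)
    (h2 : h ∈ stab Z hZc (x * T * x⁻¹)) : h ∈ Z := by
  set M := (Subgroup.zpowers x ⊔ H : Subgroup G) with hM
  set y := T * (x * T * x⁻¹) with hydef
  have hyM : y ∈ M := y_mem_M hG H h32 hx hT hTH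
  have hyS : y ∈ stab Z hZc h := (stab Z hZc h).mul_mem (stab_symm h1) (stab_symm h2)
  set K := stab Z hZc h ⊓ M with hK
  have hHK : H ≤ K := le_inf (H_le_stab H Z hZc hcomm hh) le_sup_right
  have hKM : K ≤ M := inf_le_right
  have hyK : y ∈ K := Subgroup.mem_inf.2 ⟨hyS, hyM⟩
  have hd1 : 32 ∣ Nat.card K := by rw [← h32]; exact Subgroup.card_dvd_of_le hHK
  have hd2 : Nat.card K ∣ 160 := by rw [← card_M hG H h32 hx]; exact Subgroup.card_dvd_of_le hKM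
  have hne : Nat.card K ≠ 32 := by
    intro h3
    have : H = K := Subgroup.eq_of_le_of_card_ge hHK (by rw [h3, h32])
    apply hy; rw [this]; exact hyK
  have hc : Nat.card K = 160 := by
    obtain ⟨k, hk⟩ := hd1
    rw [hk] at hd2 hne ⊢
    have h5 : k ∣ 5 := by
      have : 32 * k ∣ 32 * 5 := by simpa using hd2
      exact Nat.dvd_of_mul_dvd_mul_left (by norm_num) this
    rcases (Nat.dvd_prime (by norm_num : Nat.Prime 5)).1 h5 with rfl | rfl
    · exact absurd rfl hne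
    · rfl
  have hKe : K = M := Subgroup.eq_of_le_of_card_ge hKM (by rw [hc, card_M hG H h32 hx])
  have hxK : x ∈ K := by
    rw [hKe]; exact (le_sup_left : Subgroup.zpowers x ≤ _) (Subgroup.mem_zpowers x)
  exact mem_Z_of_stab H Z h32 hZH hZc hZ2 hCH hx hh (Subgroup.mem_inf.1 hxK).1


include hG h32 hZH hZ2 hcomm hCH in
theorem card_D_le_A {x T : G} (hx : orderOf x = 5) (hT : orderOf T = 2) (hTH : T ∉ H)
    (hy : T * (x * T * x⁻¹) ∉ H) : Nat.card (H ⊓ stab Z hZc T : Subgroup G) ≤ 8 := by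
  set D := (H ⊓ stab Z hZc T : Subgroup G) with hD
  set D' := (H ⊓ stab Z hZc (x * T * x⁻¹) : Subgroup G) with hD'
  have hle : Nat.card D ≤ Nat.card D' := by
    refine Nat.card_le_card_of_injective
      (fun d : D => (⟨x * d.1 * x⁻¹, Subgroup.mem_inf.2 ⟨hHn.conj_mem _ (Subgroup.mem_inf.1 d.2).1 x,
        stab_conj x (Subgroup.mem_inf.1 d.2).2⟩⟩ : D')) ?_
    intro a b hab
    have h1 : x * a.1 * x⁻¹ = x * b.1 * x⁻¹ := congrArg Subtype.val hab
    exact Subtype.ext (mul_left_cancel (mul_right_cancel h1))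
  have hinf : D' ⊓ D ≤ Z := by
    intro h hh
    obtain ⟨h1, h2⟩ := Subgroup.mem_inf.1 hh
    exact inf_eq_Z hG H Z h32 hZH hZc hZ2 hcomm hCH hx hT hTH hy (Subgroup.mem_inf.1 h2).1
      (Subgroup.mem_inf.1 h2).2 (Subgroup.mem_inf.1 h1).2
  have hc2 : Nat.card (D' ⊓ D : Subgroup G) ≤ 2 := by
    rw [← hZ2]
    exact Nat.le_of_dvd (by rw [hZ2]; norm_num) (Subgroup.card_dvd_of_le hinf)
  have e1 : Nat.card (D' ⊓ D : Subgroup G) * D'.relIndex D = Nat.card D := by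
    rw [← Subgroup.inf_relIndex_right D' D]
    exact Helper1.card_mul_relIndex inf_le_right
  have e2 : Nat.card D' * D'.relIndex H = 32 := by
    rw [← h32]; exact Helper1.card_mul_relIndex inf_le_left
  have e3 : D'.relIndex D ≤ D'.relIndex H :=
    Subgroup.relIndex_le_of_le_right inf_le_left (by
      intro h0; rw [h0] at e2; omega)
  have e4 : Nat.card D * Nat.card D' ≤ 64 := by
    calc Nat.card D * Nat.card D' = Nat.card (D' ⊓ D : Subgroup G) * D'.relIndex D * Nat.card D' := by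
          rw [e1]
      _ ≤ 2 * D'.relIndex H * Nat.card D' := by gcongr
      _ = 2 * (Nat.card D' * D'.relIndex H) := by ring
      _ = 64 := by rw [e2]
  by_contra hcon
  push Not at hcon
  have : 9 * 9 ≤ Nat.card D * Nat.card D' := Nat.mul_le_mul hcon (le_trans hcon hle)
  omega

/-- the kernel of the action on `H/Z`. -/
def ker0 : Subgroup G := ⨅ h : H, stab Z hZc h.1

theorem mem_ker0 {g : G} : g ∈ ker0 H Z hZc ↔ ∀ h ∈ H, g ∈ stab Z hZc h := by
  unfold ker0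
  rw [Subgroup.mem_iInf]
  exact ⟨fun h a ha => h ⟨a, ha⟩, fun h a => h a.1 a.2⟩

theorem ker0_normal : (ker0 H Z hZc).Normal := by
  constructor
  intro g hg a
  rw [mem_ker0] at hg ⊢
  intro h hh
  have h1 := hg (a⁻¹ * h * a) (by simpa using hHn.conj_mem h hh a⁻¹)
  have h2 := stab_conj a h1
  have e : a * (a⁻¹ * h * a) * a⁻¹ = h := by group
  rwa [e] at h2

include hG h32 hZ2 hCH in
theorem ker0_isPGroup : IsPGroup 2 (ker0 H Z hZc) := by
  have : Fact (Nat.Prime 5) := ⟨by norm_num⟩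
  have h1 : Nat.card (ker0 H Z hZc) ∣ 2 ^ 6 * 5 := by
    have := Subgroup.card_subgroup_dvd_card (ker0 H Z hZc)
    rw [hG] at this
    simpa using this
  have h2 : ¬ 5 ∣ Nat.card (ker0 H Z hZc) := by
    intro h5
    obtain ⟨w, hw⟩ := exists_prime_orderOf_dvd_card' (G := ker0 H Z hZc) 5 h5
    have hw' : orderOf (w : G) = 5 := by rw [Subgroup.orderOf_coe]; exact hw
    apply not_centralize H h32 hCH hw'
    intro h hh
    have hw5 : (w : G) ^ 5 = 1 := by rw [← hw']; exact pow_orderOf_eq_one _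
    exact comm_of_stab hZ2 hw5 ((mem_ker0 H Z hZc).1 w.2 h hh)
  have h3 : Nat.card (ker0 H Z hZc) ∣ 2 ^ 6 :=
    Nat.Coprime.dvd_of_dvd_mul_right
      ((Nat.Prime.coprime_iff_not_dvd (by norm_num)).2 h2).symm h1
  obtain ⟨k, -, hk⟩ := (Nat.dvd_prime_pow Nat.prime_two).1 h3
  exact IsPGroup.of_card hk


include hZH in
theorem Z_le_D (T : G) : Z ≤ H ⊓ stab Z hZc T := by
  intro c hc
  refine Subgroup.mem_inf.2 ⟨hZH hc, ?_⟩
  rw [mem_stab, ← hZc c hc T]
  have : T * c * c⁻¹ * T⁻¹ = 1 := by group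
  rw [this]; exact Z.one_mem

include hG h32 hZH hZ2 hcomm hCH in
theorem caseB_false {x T : G} (hx : orderOf x = 5) (hTH : T ∉ H)
    (hO2 : ∀ N : Subgroup G, N.Normal → IsPGroup 2 N → N ≤ H)
    (hy : T * (x * T * x⁻¹) ∈ H) (h4 : 4 ∣ Nat.card (H ⊓ stab Z hZc T : Subgroup G)) : False := by
  have : Fact (Nat.Prime 5) := ⟨by norm_num⟩
  set D := (H ⊓ stab Z hZc T : Subgroup G) with hD
  have hx5 : x ^ 5 = 1 := by rw [← hx]; exact pow_orderOf_eq_one x
  have ha : (MulAut.conj x) ^ 5 = 1 := by rw [← map_pow, hx5, map_one]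
  have inv1 : ∀ h ∈ D, (MulAut.conj x) h ∈ D := by
    intro h hh
    obtain ⟨h1, h2⟩ := Subgroup.mem_inf.1 hh
    rw [MulAut.conj_apply]
    have h3 : x * h * x⁻¹ ∈ H := hHn.conj_mem h h1 x
    refine Subgroup.mem_inf.2 ⟨h3, ?_⟩
    apply stab_symm
    have h4 : x * T * x⁻¹ ∈ stab Z hZc (x * h * x⁻¹) := stab_conj x (stab_symm h2)
    have h5 : T * (x * T * x⁻¹) ∈ stab Z hZc (x * h * x⁻¹) := H_le_stab H Z hZc hcomm h3 hy
    have e : T = T * (x * T * x⁻¹) * (x * T * x⁻¹)⁻¹ := by group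
    rw [e]
    exact Subgroup.mul_mem _ h5 (Subgroup.inv_mem _ h4)
  have inv2 : ∀ h ∈ D, (MulAut.conj x).symm h ∈ D := by
    intro h hh
    obtain ⟨h1, h2⟩ := Subgroup.mem_inf.1 hh
    rw [MulAut.conj_symm_apply]
    have h3 : x⁻¹ * h * x ∈ H := by simpa using hHn.conj_mem h h1 x⁻¹
    refine Subgroup.mem_inf.2 ⟨h3, ?_⟩
    apply stab_symm
    have h4 : x⁻¹ * T * x ∈ stab Z hZc (x⁻¹ * h * x) := by
      simpa using stab_conj x⁻¹ (stab_symm h2)
    have h5' : x⁻¹ * T * x * T ∈ H := by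
      have := hHn.conj_mem _ hy x⁻¹
      have e : x⁻¹ * (T * (x * T * x⁻¹)) * x⁻¹⁻¹ = x⁻¹ * T * x * T := by group
      rwa [e] at this
    have h5 : x⁻¹ * T * x * T ∈ stab Z hZc (x⁻¹ * h * x) := H_le_stab H Z hZc hcomm h3 h5'
    have e : T = (x⁻¹ * T * x)⁻¹ * (x⁻¹ * T * x * T) := by group
    rw [e]
    exact Subgroup.mul_mem _ (Subgroup.inv_mem _ h4) h5
  have hmod := Helper3.card_modEq_card_inf_fixSub (MulAut.conj x) ha D inv1 inv2
  have hF : D ⊓ Helper3.fixSub (MulAut.conj x) = Z := by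
    apply le_antisymm
    · intro h hh
      obtain ⟨h1, h2⟩ := Subgroup.mem_inf.1 hh
      exact fix_le H Z h32 hZH hZc hZ2 hCH hx (Subgroup.mem_inf.1 h1).1 h2
    · intro c hc
      refine Subgroup.mem_inf.2 ⟨Z_le_D H Z hZH hZc T hc, ?_⟩
      rw [Helper3.mem_fixSub]
      show x * c * x⁻¹ = c
      rw [hZc c hc x, mul_inv_cancel_right]
  rw [hF, hZ2] at hmod
  have hdvd : Nat.card D ∣ 32 := by rw [← h32]; exact Subgroup.card_dvd_of_le inf_le_left
  have hcard : Nat.card D = 32 := by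
    have hle : Nat.card D ≤ 32 := Nat.le_of_dvd (by norm_num) hdvd
    have hm : Nat.card D % 5 = 2 % 5 := hmod
    generalize Nat.card D = n at *
    interval_cases n <;> omega
  have hDH : D = H := Subgroup.eq_of_le_of_card_ge inf_le_left (by rw [hcard, h32])
  have hTk : T ∈ ker0 H Z hZc := by
    rw [mem_ker0]
    intro h hh
    apply stab_symm
    have : h ∈ D := by rw [hDH]; exact hh
    exact (Subgroup.mem_inf.1 this).2
  exact hTH (hO2 _ (ker0_normal H Z hZc) (ker0_isPGroup hG H Z h32 hZc hZ2 hCH) hTk)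

include hG h32 hZH hZ2 hcomm hCH in
theorem card_D_le {T : G} (hT : orderOf T = 2) (hTH : T ∉ H)
    (hO2 : ∀ N : Subgroup G, N.Normal → IsPGroup 2 N → N ≤ H)
    (h4 : 4 ∣ Nat.card (H ⊓ stab Z hZc T : Subgroup G)) :
    Nat.card (H ⊓ stab Z hZc T : Subgroup G) ≤ 8 := by
  have : Fact (Nat.Prime 5) := ⟨by norm_num⟩
  obtain ⟨x, hx⟩ := exists_prime_orderOf_dvd_card' (G := G) 5 (by rw [hG]; norm_num)
  by_cases hy : T * (x * T * x⁻¹) ∈ H
  · exact (caseB_false hG H Z h32 hZH hZc hZ2 hcomm hCH hx hTH hO2 hy h4).elim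
  · exact card_D_le_A hG H Z h32 hZH hZc hZ2 hcomm hCH hx hT hTH hy


include hZc in
theorem Z_normal : Z.Normal :=
  ⟨fun c hc g => by rw [hZc c hc g, mul_inv_cancel_right]; exact hc⟩

include h32 hZH hZ2 hcomm in
theorem sq_of_card_eight {T : G} (hT : orderOf T = 2) (hsq : ∀ a ∈ H, a ^ 2 ∈ Z)
    (hC8 : Nat.card (H ⊓ Subgroup.centralizer {T} : Subgroup G) = 8)
    (hD8 : Nat.card (H ⊓ stab Z hZc T : Subgroup G) ≤ 8) :
    ∀ c ∈ (H ⊓ Subgroup.centralizer {T} : Subgroup G), c ^ 2 = 1 := by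
  classical
  set C := (H ⊓ Subgroup.centralizer {T} : Subgroup G) with hC
  set D := (H ⊓ stab Z hZc T : Subgroup G) with hD
  have hT2 : T * T = 1 := by rw [← pow_two, ← hT]; exact pow_orderOf_eq_one T
  have hTi : T⁻¹ = T := inv_eq_of_mul_eq_one_left hT2
  have hCD : C ≤ D := by
    intro c hc
    obtain ⟨h1, h2⟩ := Subgroup.mem_inf.1 hc
    refine Subgroup.mem_inf.2 ⟨h1, ?_⟩
    rw [Subgroup.mem_centralizer_singleton_iff] at h2
    rw [mem_stab, h2]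
    have : T * c * c⁻¹ * T⁻¹ = 1 := by group
    rw [this]; exact Z.one_mem
  have hEq : C = D := Subgroup.eq_of_le_of_card_ge hCD (by rw [hC8]; exact hD8)
  have hφH : ∀ h ∈ H, h * T * h⁻¹ * T⁻¹ ∈ H := by
    intro h hh
    have : h * T * h⁻¹ * T⁻¹ = h * (T * h⁻¹ * T⁻¹) := by group
    rw [this]
    exact H.mul_mem hh (hHn.conj_mem _ (H.inv_mem hh) T)
  have hφinv : ∀ h : G, T * (h * T * h⁻¹ * T⁻¹) * T⁻¹ = (h * T * h⁻¹ * T⁻¹)⁻¹ := by
    intro h
    calc T * (h * T * h⁻¹ * T⁻¹) * T⁻¹ = T * h * T * h⁻¹ * (T * T)⁻¹ := by group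
      _ = T * h * T * h⁻¹ := by rw [hT2]; simp
      _ = T * h * T⁻¹ * h⁻¹ := by rw [hTi]
      _ = (h * T * h⁻¹ * T⁻¹)⁻¹ := by group
  have hφC : ∀ h ∈ H, h * T * h⁻¹ * T⁻¹ ∈ C := by
    intro h hh
    rw [hEq]
    refine Subgroup.mem_inf.2 ⟨hφH h hh, ?_⟩
    rw [mem_stab]
    set k := h * T * h⁻¹ * T⁻¹ with hk
    have e : k * T * k⁻¹ * T⁻¹ = k * (T * k * T⁻¹)⁻¹ := by group
    rw [e, hφinv h, inv_inv, ← pow_two]
    exact hsq k (hφH h hh)
  have hφ2 : ∀ h ∈ H, (h * T * h⁻¹ * T⁻¹) ^ 2 = 1 := by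
    intro h hh
    have h1 := (Subgroup.mem_inf.1 (hφC h hh)).2
    rw [Subgroup.mem_centralizer_singleton_iff] at h1
    set k := h * T * h⁻¹ * T⁻¹ with hk
    have h2 : T * k * T⁻¹ = k := by rw [← h1]; group
    have h3 : k⁻¹ = k := by rw [← hφinv h, h2]
    rw [pow_two]
    calc k * k = k⁻¹ * k := by rw [h3]
      _ = 1 := by group
  have hZn : Z.Normal := Z_normal Z hZc
  have hZC : Z ≤ C := by rw [hEq]; exact Z_le_D H Z hZH hZc T
  let Ψ : H →* C ⧸ (Z.subgroupOf C) := MonoidHom.mk'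
    (fun h => QuotientGroup.mk (⟨h.1 * T * h.1⁻¹ * T⁻¹, hφC h.1 h.2⟩ : C)) (by
      intro a b
      rw [← QuotientGroup.mk_mul, QuotientGroup.eq, Subgroup.mem_subgroupOf]
      show ((a.1 * b.1) * T * (a.1 * b.1)⁻¹ * T⁻¹)⁻¹ *
        ((a.1 * T * a.1⁻¹ * T⁻¹) * (b.1 * T * b.1⁻¹ * T⁻¹)) ∈ Z
      set k1 := a.1 * T * a.1⁻¹ * T⁻¹ with hk1
      set k2 := b.1 * T * b.1⁻¹ * T⁻¹ with hk2
      have hc1 : a.1 * k2 * a.1⁻¹ * k2⁻¹ ∈ Z := hcomm _ a.2 _ (hφH _ b.2)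
      have hc2 : k2 * k1 * k2⁻¹ * k1⁻¹ ∈ Z := hcomm _ (hφH _ b.2) _ (hφH _ a.2)
      have e1 : (a.1 * b.1) * T * (a.1 * b.1)⁻¹ * T⁻¹
          = ((a.1 * k2 * a.1⁻¹ * k2⁻¹) * (k2 * k1 * k2⁻¹ * k1⁻¹)) * (k1 * k2) := by
        rw [hk1, hk2]; group
      set c := (a.1 * k2 * a.1⁻¹ * k2⁻¹) * (k2 * k1 * k2⁻¹ * k1⁻¹) with hc
      have hcZ : c ∈ Z := Z.mul_mem hc1 hc2
      rw [e1, mul_inv_rev, mul_assoc, ← hZc _ (Z.inv_mem hcZ) (k1 * k2), inv_mul_cancel_left]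
      exact Z.inv_mem hcZ)
  have hker : Ψ.ker = D.subgroupOf H := by
    ext h
    rw [MonoidHom.mem_ker, Subgroup.mem_subgroupOf]
    show QuotientGroup.mk (⟨h.1 * T * h.1⁻¹ * T⁻¹, hφC h.1 h.2⟩ : C) = 1 ↔ _
    rw [QuotientGroup.eq_one_iff, Subgroup.mem_subgroupOf]
    constructor
    · intro h1
      exact Subgroup.mem_inf.2 ⟨h.2, h1⟩
    · intro h1
      exact (Subgroup.mem_inf.1 h1).2
  have hcardker : Nat.card Ψ.ker = 8 := by
    have hD8' : Nat.card D = 8 := by rw [← hEq, hC8]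
    rw [hker, Nat.card_congr (Subgroup.subgroupOfEquivOfLe (inf_le_left : D ≤ H)).toEquiv]
    exact hD8'
  have hrange : Nat.card Ψ.range = 4 := by
    have h1 := Subgroup.card_mul_index Ψ.ker
    rw [hcardker, Subgroup.index_ker, h32] at h1
    omega
  have hquot : Nat.card (C ⧸ (Z.subgroupOf C)) = 4 := by
    have h1 := Subgroup.card_eq_card_quotient_mul_card_subgroup (Z.subgroupOf C)
    rw [hC8, Nat.card_congr (Subgroup.subgroupOfEquivOfLe hZC).toEquiv, hZ2] at h1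
    omega
  have htop : Ψ.range = ⊤ := Subgroup.eq_top_of_card_eq _ (by rw [hrange, hquot])
  intro c hc
  have h1 : (QuotientGroup.mk (⟨c, hc⟩ : C) : C ⧸ (Z.subgroupOf C)) ∈ Ψ.range := by
    rw [htop]; exact Subgroup.mem_top _
  obtain ⟨h, hh⟩ := h1
  have h2 : QuotientGroup.mk (⟨h.1 * T * h.1⁻¹ * T⁻¹, hφC h.1 h.2⟩ : C)
      = (QuotientGroup.mk (⟨c, hc⟩ : C) : C ⧸ (Z.subgroupOf C)) := hh
  rw [QuotientGroup.eq, Subgroup.mem_subgroupOf] at h2
  have h3 : (h.1 * T * h.1⁻¹ * T⁻¹)⁻¹ * c ∈ Z := h2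
  set k := h.1 * T * h.1⁻¹ * T⁻¹ with hk
  set ζ := k⁻¹ * c with hζ
  have e : c = k * ζ := by rw [hζ]; group
  have hk2 : k * k = 1 := by rw [← pow_two]; exact hφ2 h.1 h.2
  have hζ2 : ζ * ζ = 1 := by rw [← pow_two]; exact sq_eq_one hZ2 h3
  rw [e, pow_two]
  calc k * ζ * (k * ζ) = k * (ζ * k) * ζ := by group
    _ = k * (k * ζ) * ζ := by rw [hZc ζ h3 k]
    _ = (k * k) * (ζ * ζ) := by group
    _ = 1 := by rw [hk2, hζ2, one_mul]

end main

end X320

end Cfsg.Agent.Lib.Helper26
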