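import Cfsg.Agent.Lib.Helper73.SNN.STR

/-!
Ladder SNN (S4073): the structure theorem STR for a subgroup `L` of `G`, stated inside `G`.
-/

set_option autoImplicit false

namespace Cfsg.Agent.Lib.Helper26.SNN

open Subgroup Cfsg.Agent.Lib.Helper73.SNN

theorem mem_of_coprime_of_sup {M : Type*} [Group M] (K : Subgroup M) [K.Normal] {y : M} {s e : ℕ}
    (hy : orderOf y = s ^ e) (hsup : K ⊔ zpowers y = ⊤) {x : M} (hx : (orderOf x).Coprime s) :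
    x ∈ K := by
  have hx' : x ∈ (↑(K ⊔ zpowers y) : Set M) := by rw [hsup]; exact Set.mem_univ _
  rw [normal_mul] at hx'
  obtain ⟨k, hk, z, hz, rfl⟩ := Set.mem_mul.mp hx'
  obtain ⟨i, rfl⟩ := mem_zpowers_iff.mp hz
  have h1 : (k * y ^ i) ^ (s ^ e) ∈ K := by
    rw [← QuotientGroup.eq_one_iff]
    have h0 : ((k * y ^ i : M) : M ⧸ K) = ((y : M ⧸ K)) ^ i := by
      rw [QuotientGroup.mk_mul, (QuotientGroup.eq_one_iff k).mpr hk, one_mul, QuotientGroup.mk_zpow]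
    have h2 : ((y : M ⧸ K)) ^ (s ^ e) = 1 := by
      rw [← QuotientGroup.mk_pow, ← hy, pow_orderOf_eq_one, QuotientGroup.mk_one]
    rw [QuotientGroup.mk_pow, h0, ← zpow_natCast, ← zpow_mul, mul_comm, zpow_mul, zpow_natCast, h2,
      one_zpow]
  have h2 : (s ^ e).Coprime (orderOf (k * y ^ i)) := Nat.Coprime.pow_left e hx.symm
  obtain ⟨m, hm⟩ := exists_pow_eq_self_of_coprime h2
  rw [← hm]
  exact K.pow_mem h1 m

/-- the data of case (B) of STR for a subgroup `L` of `G`. -/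
structure BData {G : Type*} [Group G] (L K : Subgroup G) (y : G) (s : ℕ) : Prop where
  prime : s.Prime
  le : K ≤ L
  mem : y ∈ L
  conj_mem : ∀ l ∈ L, ∀ k ∈ K, l * k * l⁻¹ ∈ K
  comm : ∀ a ∈ K, ∀ b ∈ K, a * b = b * a
  coprime : (Nat.card K).Coprime s
  order : ∃ e : ℕ, orderOf y = s ^ e
  mem_of_coprime : ∀ x ∈ L, (orderOf x).Coprime s → x ∈ K
  fpf : ∀ k ∈ K, y * k = k * y → k = 1
  pow_comm : ∀ k ∈ K, y ^ s * k = k * y ^ s
  decomp : ∀ x ∈ L, ∃ k ∈ K, ∃ i : ℤ, x = k * y ^ i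

theorem str_rel {G : Type*} [Group G] [Finite G] (h : SN G) (L : Subgroup G)
    (hs : Group.IsSolvable L) (hna : ¬ IsMulCommutative L) :
    (∃ p : ℕ, p.Prime ∧ IsPGroup p L) ∨ ∃ (s : ℕ) (K : Subgroup G) (y : G), BData L K y s := by
  rcases str (h.subgroup L) hs hna with h1 | ⟨s, K, y, hsp, hKn, hKc, hcop, ⟨e, he⟩, hsup, hfpf, hys⟩
  · exact Or.inl h1
  right
  refine ⟨s, K.map L.subtype, y.1, hsp, map_subtype_le _, y.2, ?_, ?_, ?_, ⟨e, ?_⟩, ?_, ?_, ?_, ?_⟩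
  · rintro l hl _ ⟨k, hk, rfl⟩
    exact ⟨⟨l, hl⟩ * k * ⟨l, hl⟩⁻¹, hKn.conj_mem k hk _, rfl⟩
  · rintro _ ⟨a, ha, rfl⟩ _ ⟨b, hb, rfl⟩
    have := hKc.is_comm.comm (⟨a, ha⟩ : K) ⟨b, hb⟩
    exact congrArg (fun z : K => ((z : L) : G)) this
  · rw [Nat.card_congr (K.equivMapOfInjective L.subtype L.subtype_injective).symm.toEquiv]
    exact hcop
  · rw [Subgroup.orderOf_coe]; exact he
  · intro x hx hxo
    refine ⟨⟨x, hx⟩, mem_of_coprime_of_sup K he hsup ?_, rfl⟩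
    rwa [Subgroup.orderOf_mk]
  · rintro _ ⟨k, hk, rfl⟩ hcomm
    have := hfpf k hk (Subtype.ext hcomm)
    rw [this]; rfl
  · rintro _ ⟨k, hk, rfl⟩
    exact congrArg Subtype.val (hys k hk)
  · intro x hx
    have hx' : (⟨x, hx⟩ : L) ∈ (↑(K ⊔ zpowers y) : Set L) := by rw [hsup]; exact Set.mem_univ _
    rw [normal_mul] at hx'
    obtain ⟨k, hk, z, hz, hkz⟩ := Set.mem_mul.mp hx'
    obtain ⟨i, rfl⟩ := mem_zpowers_iff.mp hz
    refine ⟨k.1, ⟨k, hk, rfl⟩, i, ?_⟩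
    have := congrArg Subtype.val hkz
    simpa using this.symm

end Cfsg.Agent.Lib.Helper26.SNN
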