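import Cfsg.Agent.Lib.Helper26.ThompsonDih2

/-! Thompson dihedral lemma, part 3: dual systems with the faithfulness clause. -/

set_option autoImplicit false

namespace Cfsg.Agent.Lib.Helper26

section TD3
variable {G : Type*} [Group G]

theorem CInv.le_normalizer {A X : Subgroup G} (h : CInv A X) :
    A ≤ Subgroup.normalizer (X : Set G) := by
  intro a ha
  rw [Subgroup.mem_normalizer_iff]
  intro x
  constructor
  · exact h a ha x
  · intro hx
    have := h a⁻¹ (inv_mem ha) _ hx
    have e : a⁻¹ * (a * x * a⁻¹) * a⁻¹⁻¹ = x := by group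
    rwa [e] at this

/-- Dual systems. -/
theorem dual_system2 [Finite G] {A V : Subgroup G} (hA : E2 A)
    (hV : ∀ x ∈ V, ∀ y ∈ V, x * y = y * x) (hodd : Odd (Nat.card V)) (hinv : CInv A V)
    (hf : ∀ a ∈ A, (∀ v ∈ V, a * v = v * a) → a = 1) :
    ∀ (d : ℕ) (C : Subgroup G), C ≤ A → Nat.card C = 2 ^ d →
      ∃ (a x : Fin d → G), (∀ i, a i ∈ C) ∧
        (∀ i, x i ∈ V ∧ x i ≠ 1 ∧ ∀ g ∈ A, g * x i * g⁻¹ = x i ∨ g * x i * g⁻¹ = (x i)⁻¹) ∧
        (∀ i, a i * x i * (a i)⁻¹ = (x i)⁻¹) ∧
        (∀ i j, i ≠ j → a i * x j = x j * a i) ∧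
        Subgroup.closure (Set.range a) = C ∧
        (∀ g ∈ A, ∃ c ∈ C, ∀ i, (g * c) * x i = x i * (g * c)) ∧
        (∀ c ∈ C, (∀ i, c * x i = x i * c) → c = 1) := by
  intro d
  induction d with
  | zero =>
    intro C hCA hcard
    have hC : C = ⊥ := by
      rw [pow_zero] at hcard
      exact Subgroup.card_eq_one.1 hcard
    refine ⟨Fin.elim0, Fin.elim0, fun i => i.elim0, fun i => i.elim0, fun i => i.elim0,
      fun i => i.elim0, ?_, fun g _ => ⟨1, one_mem _, fun i => i.elim0⟩, ?_⟩
    swap
    · intro c hc _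
      rw [hC, Subgroup.mem_bot] at hc
      exact hc
    rw [hC]
    have : Set.range (Fin.elim0 : Fin 0 → G) = ∅ := Set.range_eq_empty _
    rw [this, Subgroup.closure_empty]
  | succ d ih =>
    intro C hCA hcard
    -- a nontrivial element
    obtain ⟨a', ha'C, ha'1⟩ : ∃ a' ∈ C, a' ≠ 1 := by
      by_contra hcon
      push Not at hcon
      have : C = ⊥ := (Subgroup.eq_bot_iff_forall _).2 hcon
      rw [this, Subgroup.card_bot] at hcard
      have : 2 ≤ 2 ^ (d + 1) := by
        calc 2 = 2 ^ 1 := rfl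
          _ ≤ 2 ^ (d + 1) := Nat.pow_le_pow_right (by norm_num) (by omega)
      omega
    have ha'A := hCA ha'C
    obtain ⟨x0, hx0V, hx01, hx0a', hx0A⟩ := exists_eigen hA hV hinv ha'A
      (fun h => ha'1 (hf a' ha'A h))
    have hx0ne : x0 ≠ x0⁻¹ := ne_inv_of_odd hodd hx0V hx01
    set C' : Subgroup G := C ⊓ Subgroup.centralizer ({x0} : Set G) with hC'
    have hmemC' : ∀ g, g ∈ C' ↔ g ∈ C ∧ g * x0 * g⁻¹ = x0 := by
      intro g
      rw [hC', Subgroup.mem_inf, Subgroup.mem_centralizer_singleton_iff]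
      constructor
      · rintro ⟨h1, h2⟩
        exact ⟨h1, conj_of_comm h2⟩
      · rintro ⟨h1, h2⟩
        exact ⟨h1, comm_of_conj h2⟩
    -- product rules
    have hinvinv : ∀ g h : G, g * x0 * g⁻¹ = x0⁻¹ → h * x0 * h⁻¹ = x0⁻¹ →
        (g * h) * x0 * (g * h)⁻¹ = x0 := by
      intro g h h1 h2
      calc (g * h) * x0 * (g * h)⁻¹ = g * (h * x0 * h⁻¹) * g⁻¹ := by group
        _ = (g * x0 * g⁻¹)⁻¹ := by rw [h2]; group
        _ = x0 := by rw [h1, inv_inv]
    have hcinv : ∀ g h : G, g * x0 * g⁻¹ = x0 → h * x0 * h⁻¹ = x0⁻¹ →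
        (g * h) * x0 * (g * h)⁻¹ = x0⁻¹ := by
      intro g h h1 h2
      calc (g * h) * x0 * (g * h)⁻¹ = g * (h * x0 * h⁻¹) * g⁻¹ := by group
        _ = (g * x0 * g⁻¹)⁻¹ := by rw [h2]; group
        _ = x0⁻¹ := by rw [h1]
    have hinvc : ∀ g h : G, g * x0 * g⁻¹ = x0⁻¹ → h * x0 * h⁻¹ = x0 →
        (g * h) * x0 * (g * h)⁻¹ = x0⁻¹ := by
      intro g h h1 h2
      calc (g * h) * x0 * (g * h)⁻¹ = g * (h * x0 * h⁻¹) * g⁻¹ := by group
        _ = x0⁻¹ := by rw [h2, h1]
    have hrel : C'.relIndex C = 2 := by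
      rw [Subgroup.relIndex_eq_two_iff]
      refine ⟨a', ha'C, ?_⟩
      intro b hb
      rcases hx0A b (hCA hb) with h | h
      · right
        refine ⟨(hmemC' b).2 ⟨hb, h⟩, ?_⟩
        intro h2
        have h3 := ((hmemC' _).1 h2).2
        rw [hcinv b a' h hx0a'] at h3
        exact hx0ne h3.symm
      · left
        refine ⟨(hmemC' _).2 ⟨mul_mem hb ha'C, hinvinv b a' h hx0a'⟩, ?_⟩
        intro h2
        have h3 := ((hmemC' _).1 h2).2
        rw [h] at h3
        exact hx0ne h3.symm
    have hcard' : Nat.card C' = 2 ^ d := by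
      have h1 := Subgroup.relIndex_mul_relIndex ⊥ C' C bot_le inf_le_left
      rw [Subgroup.relIndex_bot_left, Subgroup.relIndex_bot_left, hrel, hcard, pow_succ] at h1
      omega
    obtain ⟨a, x, h1, h2, h3, h4, h5, h6, h7⟩ := ih C' (inf_le_left.trans hCA) hcard'
    obtain ⟨c, hc, hcx⟩ := h6 a' ha'A
    have hcC := ((hmemC' c).1 hc)
    have ha''x0 : (a' * c) * x0 * (a' * c)⁻¹ = x0⁻¹ := hinvc a' c hx0a' hcC.2
    have ha''C : a' * c ∈ C := mul_mem ha'C hcC.1
    refine ⟨Fin.cons (a' * c) a, Fin.cons x0 x, ?_, ?_, ?_, ?_, ?_, ?_, ?_⟩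
    · intro i
      refine Fin.cases ?_ (fun j => ?_) i
      · simpa using ha''C
      · simpa using ((hmemC' _).1 (h1 j)).1
    · intro i
      refine Fin.cases ?_ (fun j => ?_) i
      · simpa using ⟨hx0V, hx01, hx0A⟩
      · simpa using h2 j
    · intro i
      refine Fin.cases ?_ (fun j => ?_) i
      · simpa using ha''x0
      · simpa using h3 j
    · intro i j
      refine Fin.cases ?_ (fun i' => ?_) i
      · refine Fin.cases ?_ (fun j' => ?_) j
        · intro h; exact absurd rfl h
        · intro _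
          simpa using hcx j'
      · refine Fin.cases ?_ (fun j' => ?_) j
        · intro _
          simpa using comm_of_conj ((hmemC' _).1 (h1 i')).2
        · intro h
          have : i' ≠ j' := fun e => h (by rw [e])
          simpa using h4 i' j' this
    · rw [Fin.range_cons]
      apply le_antisymm
      · rw [Subgroup.closure_le]
        rintro g (rfl | hg)
        · exact ha''C
        · obtain ⟨j, rfl⟩ := hg
          exact ((hmemC' _).1 (h1 j)).1
      · have hle : C' ≤ Subgroup.closure (insert (a' * c) (Set.range a)) := by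
          rw [← h5]
          exact Subgroup.closure_mono (Set.subset_insert _ _)
        have hmem : a' * c ∈ Subgroup.closure (insert (a' * c) (Set.range a)) :=
          Subgroup.subset_closure (Set.mem_insert _ _)
        intro g hg
        rcases hx0A g (hCA hg) with h | h
        · exact hle ((hmemC' g).2 ⟨hg, h⟩)
        · have : g * (a' * c) ∈ C' := (hmemC' _).2 ⟨mul_mem hg ha''C, hinvinv g _ h ha''x0⟩
          have e : g = (g * (a' * c)) * (a' * c)⁻¹ := by group
          rw [e]
          exact mul_mem (hle this) (inv_mem hmem)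
    · intro g hg
      obtain ⟨c1, hc1, hc1x⟩ := h6 g hg
      have hc1C := ((hmemC' c1).1 hc1)
      rcases hx0A (g * c1) (mul_mem hg (hCA hc1C.1)) with h | h
      · refine ⟨c1, hc1C.1, ?_⟩
        intro i
        refine Fin.cases ?_ (fun j => ?_) i
        · simpa using comm_of_conj h
        · simpa using hc1x j
      · refine ⟨c1 * (a' * c), mul_mem hc1C.1 ha''C, ?_⟩
        intro i
        refine Fin.cases ?_ (fun j => ?_) i
        · have := comm_of_conj (hinvinv (g * c1) (a' * c) h ha''x0)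
          simpa [mul_assoc] using this
        · have e1 := hc1x j
          have e2 := hcx j
          have : (g * (c1 * (a' * c))) * x j = x j * (g * (c1 * (a' * c))) := by
            calc (g * (c1 * (a' * c))) * x j = (g * c1) * ((a' * c) * x j) := by group
              _ = (g * c1) * (x j * (a' * c)) := by rw [e2]
              _ = ((g * c1) * x j) * (a' * c) := by group
              _ = (x j * (g * c1)) * (a' * c) := by rw [e1]
              _ = _ := by group
          simpa using this
    · intro c1 hc1 hall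
      have e0 : c1 * x0 = x0 * c1 := by simpa using hall 0
      apply h7 c1 ((hmemC' c1).2 ⟨hc1, conj_of_comm e0⟩)
      intro i
      simpa using hall i.succ

end TD3

end Cfsg.Agent.Lib.Helper26
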