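import Mathlib

/-! A transvection over `F_2` in a group `G` with a normal subgroup `F` without `2`-elements and with
`C_G(F) ≤ F` is not a square of an element of order `4`. -/

set_option autoImplicit false

namespace Cfsg.Agent.Lib.Helper26.TV

variable {G V : Type*} [Group G] [AddCommGroup V] [DistribMulAction G V]

/-- `a` moves every vector by `0` or `u`. -/
def Tv (a : G) (u : V) : Prop := ∀ v : V, a • v = v ∨ a • v = v + u

theorem Tv.conj {a : G} {u : V} (h : Tv a u) (g : G) : Tv (g * a * g⁻¹) (g • u) := by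
  intro v
  rcases h (g⁻¹ • v) with h1 | h1
  · left
    rw [mul_smul, mul_smul, h1, smul_inv_smul]
  · right
    rw [mul_smul, mul_smul, h1, smul_add, smul_inv_smul]

theorem Tv.fix_center (h2 : ∀ v : V, v + v = 0) {a : G} {u : V} (h : Tv a u) (ha : a * a = 1) :
    a • u = u := by
  by_cases hall : ∀ v : V, a • v = v
  · exact hall u
  · push Not at hall
    obtain ⟨v, hv⟩ := hall
    have h1 : a • v = v + u := (h v).resolve_left hv
    have h3 : a • (a • v) = v := by rw [← mul_smul, ha, one_smul]
    rw [h1, smul_add, h1, add_assoc] at h3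
    have h4 : u + a • u = 0 := by
      have := add_left_cancel (a := v) (b := u + a • u) (c := 0) (by rw [h3, add_zero])
      exact this
    have h5 : a • u = -u := (neg_eq_of_add_eq_zero_right h4).symm
    rw [h5]
    exact neg_eq_of_add_eq_zero_left (h2 u)

theorem comm_of_same_center [FaithfulSMul G V] {b c : G} {w : V} (hb : Tv b w) (hc : Tv c w)
    (hbw : b • w = w) (hcw : c • w = w) : b * c = c * b := by
  apply FaithfulSMul.eq_of_smul_eq_smul (α := V)
  intro v
  rcases hb v with h1 | h1 <;> rcases hc v with h3 | h3 <;>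
    simp [mul_smul, h1, h3, smul_add, hbw, hcw]

theorem pow_four_eq_one [FaithfulSMul G V] {a b : G} {w : V} (ha : a * a = 1) (hb : b * b = 1)
    (hbT : Tv b w) (hbw : b • w = w) (haw : a • w = w) : (a * b) ^ 4 = 1 := by
  have hai : a⁻¹ = a := inv_eq_of_mul_eq_one_left ha
  have hc : Tv (a * b * a⁻¹) w := by
    have := hbT.conj a
    rwa [haw] at this
  have hcw : (a * b * a⁻¹) • w = w := by
    rw [hai, mul_smul, mul_smul, haw, hbw, haw]
  have hcomm := comm_of_same_center hbT hc hbw hcw
  rw [hai] at hcomm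
  -- b * (a b a) = (a b a) * b
  have e1 : (a * b) ^ 4 = (a * b * a * b) * (a * b * a * b) := by
    simp only [pow_succ, pow_zero, one_mul, mul_assoc]
  rw [e1]
  calc a * b * a * b * (a * b * a * b) = a * b * a * (b * (a * b * a)) * b := by
        simp only [mul_assoc]
    _ = a * b * a * ((a * b * a) * b) * b := by rw [hcomm]
    _ = a * b * (a * a) * b * a * (b * b) := by simp only [mul_assoc]
    _ = a * (b * b) * a := by rw [ha, mul_one, hb, mul_one, mul_assoc a b b, hb]
    _ = 1 := by rw [hb, mul_one, ha]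

theorem key_pair [FaithfulSMul G V] (h2 : ∀ v : V, v + v = 0) (F : Subgroup G)
    (hF2 : ∀ z ∈ F, z ^ 4 = 1 → z = 1) {a b : G} {u w : V} (ha : a * a = 1) (hb : b * b = 1)
    (haT : Tv a u) (hbT : Tv b w) (hab : a * b ∈ F) :
    a = b ∨ (a • w = w + u ∧ b • u = u + w) := by
  have hbi : b⁻¹ = b := inv_eq_of_mul_eq_one_left hb
  have hai : a⁻¹ = a := inv_eq_of_mul_eq_one_left ha
  rcases haT w with h | h
  · left
    have h1 := hF2 _ hab (pow_four_eq_one ha hb hbT (hbT.fix_center h2 hb) h)
    rw [← hbi]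
    exact eq_inv_of_mul_eq_one_left h1
  · rcases hbT u with h' | h'
    · left
      have hba : b * a ∈ F := by
        have := inv_mem hab
        rwa [mul_inv_rev, hai, hbi] at this
      have h1 := hF2 _ hba (pow_four_eq_one hb ha haT (haT.fix_center h2 ha) h')
      rw [← hbi]
      exact (inv_eq_of_mul_eq_one_right h1).symm
    · right
      exact ⟨h, h'⟩

theorem fix_of_comm [FaithfulSMul G V] {t R : G} {v0 : V} (ht : Tv t v0) (ht1 : t ≠ 1)
    (hR : R * t = t * R) : R • v0 = v0 := by
  have hex : ∃ v : V, t • v ≠ v := by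
    by_contra hcon
    push Not at hcon
    apply ht1
    apply FaithfulSMul.eq_of_smul_eq_smul (α := V)
    intro v
    rw [hcon v, one_smul]
  obtain ⟨v, hv⟩ := hex
  have h1 : t • v = v + v0 := (ht v).resolve_left hv
  have h3 : t • (R • v) = R • v + R • v0 := by
    rw [← mul_smul, ← hR, mul_smul, h1, smul_add]
  rcases ht (R • v) with h | h
  · exfalso
    rw [h3] at h
    have h4 : R • v0 = 0 := by
      have := add_left_cancel (a := R • v) (b := R • v0) (c := 0) (by rw [h, add_zero])
      exact this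
    have h5 : v0 = 0 := by
      have := congrArg (fun z => R⁻¹ • z) h4
      simpa using this
    apply hv
    rw [h1, h5, add_zero]
  · rw [h3] at h
    exact add_left_cancel h

theorem no_sqrt_transvection [FaithfulSMul G V] (h2 : ∀ v : V, v + v = 0) (F : Subgroup G)
    [hFn : F.Normal] (hF2 : ∀ z ∈ F, z ^ 4 = 1 → z = 1)
    (hCF : Subgroup.centralizer (F : Set G) ≤ F) (P : G) (hP4 : P ^ 4 = 1) (hP2 : P ^ 2 ≠ 1)
    (v0 : V) (ht : Tv (P ^ 2) v0) : False := by
  set t : G := P ^ 2 with htdef
  have htt : t * t = 1 := by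
    rw [htdef, ← pow_add]
    exact hP4
  have hti : t⁻¹ = t := inv_eq_of_mul_eq_one_left htt
  have htF : t ∉ F := by
    intro h
    apply hP2
    apply hF2 t h
    rw [show (4 : ℕ) = 2 + 2 from rfl, pow_add, pow_two, htt, one_mul]
  have hex : ∃ y ∈ F, y * t ≠ t * y := by
    by_contra hcon
    push Not at hcon
    apply htF
    apply hCF
    rw [Subgroup.mem_centralizer_iff]
    intro y hy
    exact hcon y hy
  obtain ⟨y, hyF, hyt⟩ := hex
  set t1 : G := y * t * y⁻¹ with ht1def
  set v1 : V := y • v0 with hv1def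
  have ht1T : Tv t1 v1 := ht.conj y
  have ht1sq : t1 * t1 = 1 := by
    rw [ht1def]
    calc y * t * y⁻¹ * (y * t * y⁻¹) = y * (t * t) * y⁻¹ := by group
      _ = 1 := by rw [htt, mul_one, mul_inv_cancel]
  have ht1i : t1⁻¹ = t1 := inv_eq_of_mul_eq_one_left ht1sq
  set x : G := t1 * t with hxdef
  have hxF : x ∈ F := by
    have h1 : t * y⁻¹ * t⁻¹ ∈ F := hFn.conj_mem _ (inv_mem hyF) t
    have h3 := mul_mem hyF h1
    have e : y * (t * y⁻¹ * t⁻¹) = x := by
      rw [hxdef, ht1def, hti]
      simp only [mul_assoc]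
    rwa [e] at h3
  have ht1ne : t ≠ t1 := by
    intro h
    apply hyt
    rw [ht1def] at h
    have := congrArg (fun z => z * y) h
    simp only [inv_mul_cancel_right] at this
    exact this.symm
  have hx1 : x ≠ 1 := by
    intro h
    apply ht1ne
    rw [hxdef] at h
    rw [← hti]
    exact (eq_inv_of_mul_eq_one_left h).symm
  have hxinv : x⁻¹ = t * t1 := by
    rw [hxdef, mul_inv_rev, hti, ht1i]
  have hxsq : x * x ≠ 1 := by
    intro h
    apply hx1
    apply hF2 x hxF
    rw [show (4 : ℕ) = 2 + 2 from rfl, pow_add, pow_two, h, one_mul]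
  obtain ⟨hA1, hA2⟩ := (key_pair h2 F hF2 htt ht1sq ht ht1T
    (by rw [← hxinv]; exact inv_mem hxF)).resolve_left ht1ne
  -- hA1 : t • v1 = v1 + v0, hA2 : t1 • v0 = v0 + v1
  have claim : ∀ R : G, R * t = t * R → R * x * R⁻¹ = x ∨ R * x * R⁻¹ = x * x := by
    intro R hR
    have hRv0 : R • v0 = v0 := fix_of_comm ht hP2 hR
    have hRt : R * t * R⁻¹ = t := by rw [hR, mul_inv_cancel_right]
    set t1' : G := R * t1 * R⁻¹ with ht1'def
    set v1' : V := R • v1 with hv1'def
    have ht1'T : Tv t1' v1' := ht1T.conj R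
    have ht1'sq : t1' * t1' = 1 := by
      rw [ht1'def]
      calc R * t1 * R⁻¹ * (R * t1 * R⁻¹) = R * (t1 * t1) * R⁻¹ := by group
        _ = 1 := by rw [ht1sq, mul_one, mul_inv_cancel]
    have ht1'i : t1'⁻¹ = t1' := inv_eq_of_mul_eq_one_left ht1'sq
    have hRx : R * x * R⁻¹ = t1' * t := by
      calc R * x * R⁻¹ = (R * t1 * R⁻¹) * (R * t * R⁻¹) := by rw [hxdef]; group
        _ = t1' * t := by rw [hRt]
    have hRxF : t1' * t ∈ F := by
      rw [← hRx]
      exact hFn.conj_mem _ hxF R
    have h11F : t1 * t1' ∈ F := by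
      have := mul_mem hxF (inv_mem hRxF)
      rw [mul_inv_rev, hti, ht1'i, hxdef] at this
      have e : t1 * t * (t * t1') = t1 * (t * t) * t1' := by simp only [mul_assoc]
      rwa [e, htt, mul_one] at this
    rcases key_pair h2 F hF2 ht1sq ht1'sq ht1T ht1'T h11F with h | ⟨hB1, hB2⟩
    · left
      rw [hRx, ← h]
    · right
      -- hB1 : t1 • v1' = v1' + v1, hB2 : t1' • v1 = v1 + v1'
      have hC : t1' • v0 = v0 + v1' := by
        have hRi : R⁻¹ • v0 = v0 := by
          rw [inv_smul_eq_iff, hRv0]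
        rw [ht1'def, mul_smul, mul_smul, hRi, hA2, smul_add, hRv0]
      set s : G := t1 * t * t1⁻¹ with hsdef
      have hsT : Tv s (v0 + v1) := by
        have := ht.conj t1
        rwa [hA2] at this
      have hssq : s * s = 1 := by
        rw [hsdef]
        calc t1 * t * t1⁻¹ * (t1 * t * t1⁻¹) = t1 * (t * t) * t1⁻¹ := by group
          _ = 1 := by rw [htt, mul_one, mul_inv_cancel]
      have hsi : s⁻¹ = s := inv_eq_of_mul_eq_one_left hssq
      have hfix : t1' • (v0 + v1) = v0 + v1 := by
        rw [smul_add, hC, hB2]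
        have : v0 + v1' + (v1 + v1') = v0 + v1 + (v1' + v1') := by abel
        rw [this, h2, add_zero]
      have hsF : t1' * s ∈ F := by
        -- (s * t1')⁻¹ where s * t1' = x * (t1 * t1')
        have h5 := inv_mem (mul_mem hxF h11F)
        have e : (x * (t1 * t1'))⁻¹ = t1' * s := by
          rw [mul_inv_rev, mul_inv_rev, hxinv, ht1i, ht1'i, hsdef, ht1i]
          simp only [mul_assoc]
        rwa [e] at h5
      have h6 := hF2 _ hsF (pow_four_eq_one ht1'sq hssq hsT (hsT.fix_center h2 hssq) hfix)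
      have h7 : t1' = s := by
        rw [← hsi]
        exact eq_inv_of_mul_eq_one_left h6
      rw [hRx, h7, hsdef, ht1i, hxdef]
      simp only [mul_assoc]
  have htx : t * x * t⁻¹ = x⁻¹ := by
    rw [hxinv, hti, hxdef]
    calc t * (t1 * t) * t = t * t1 * (t * t) := by simp only [mul_assoc]
      _ = t * t1 := by rw [htt, mul_one]
  have hxne : x⁻¹ ≠ x := by
    intro h
    apply hxsq
    nth_rewrite 1 [← h]
    exact inv_mul_cancel x
  have hx3 : x * x * x = 1 := by
    rcases claim t rfl with h | h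
    · rw [htx] at h
      exact absurd h hxne
    · rw [htx] at h
      rw [← h]
      exact inv_mul_cancel x
  have hPt : P * t = t * P := by
    rw [htdef, ← pow_succ', ← pow_succ]
  have htP : ∀ z : G, t * z * t⁻¹ = P * (P * z * P⁻¹) * P⁻¹ := by
    intro z
    rw [htdef, pow_two]
    group
  rcases claim P hPt with h | h
  · have := htP x
    rw [h, h, htx] at this
    exact hxne this
  · have := htP x
    rw [h, htx] at this
    have e : P * (x * x) * P⁻¹ = (P * x * P⁻¹) * (P * x * P⁻¹) := by group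
    rw [e, h] at this
    apply hxne
    rw [this]
    calc x * x * (x * x) = (x * x * x) * x := by simp only [mul_assoc]
      _ = x := by rw [hx3, one_mul]

end Cfsg.Agent.Lib.Helper26.TV
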